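import Mathlib

/-!
Kernel-friendly certificates for words in generators acting on numbered points.
-/

set_option autoImplicit false

namespace Cfsg.Agent.Cert

/-- Entry `i` of a packed table with `w` bits per entry (`M = 2 ^ w`). -/
def lk (T w M i : ℕ) : ℕ := Nat.mod (Nat.shiftRight T (Nat.mul w i)) M

/-- Binary-splitting loop. -/
noncomputable def allB (f : ℕ → Bool) (d : ℕ) : ℕ → Bool :=
  Nat.rec (motive := fun _ => ℕ → Bool) (fun lo => f lo)
    (fun _ ih lo => and (ih (Nat.mul 2 lo)) (ih (Nat.succ (Nat.mul 2 lo)))) d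

theorem allB_spec (f : ℕ → Bool) : ∀ (d lo : ℕ), allB f d lo = true →
    ∀ j < 2 ^ d, f (lo * 2 ^ d + j) = true := by
  intro d
  induction d with
  | zero =>
    intro lo h j hj
    have : j = 0 := by simpa using hj
    subst this
    simpa [allB] using h
  | succ d ih =>
    intro lo h j hj
    have h' : (allB f d (2 * lo) && allB f d (2 * lo + 1)) = true := h
    rw [Bool.and_eq_true] at h'
    by_cases hj2 : j < 2 ^ d
    · have := ih _ h'.1 j hj2
      convert this using 2
      rw [pow_succ]; ring
    · have := ih _ h'.2 (j - 2 ^ d) (by rw [pow_succ] at hj; omega)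
      convert this using 2
      rw [pow_succ]
      have : 2 ^ d ≤ j := by omega
      obtain ⟨c, rfl⟩ := Nat.exists_eq_add_of_le this
      rw [Nat.add_sub_cancel_left]; ring

/-- `f` holds on `[a, b)`, where `b - a ≤ 2 ^ d`. -/
noncomputable def allR (f : ℕ → Bool) (a b d : ℕ) : Bool :=
  and (Nat.ble b (Nat.add a (Nat.pow 2 d)))
    (allB (fun j => cond (Nat.blt (Nat.add a j) b) (f (Nat.add a j)) true) d 0)

theorem allR_spec {f : ℕ → Bool} {a b d : ℕ} (h : allR f a b d = true) :
    ∀ i, a ≤ i → i < b → f i = true := by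
  intro i hai hib
  unfold allR at h
  rw [Bool.and_eq_true] at h
  have h1 : b ≤ a + 2 ^ d := Nat.le_of_ble_eq_true h.1
  have := allB_spec _ d 0 h.2 (i - a) (by omega)
  simp only [zero_mul, zero_add] at this
  have e : Nat.add a (i - a) = i := by simp only [Nat.add_eq]; omega
  rw [e] at this
  have hb : Nat.blt i b = true := Nat.blt_eq.mpr hib
  rwa [hb] at this

theorem allR_lt {f : ℕ → Bool} {b d : ℕ} (h : allR f 0 b d = true) :
    ∀ i < b, f i = true := fun i hi => allR_spec h i (Nat.zero_le _) hi

/-- Action of a word (digits in base `B`, lowest digit first, digit `0` is not used) on a point. -/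
noncomputable def evW (p : ℕ → ℕ → ℕ) (B f : ℕ) : ℕ → ℕ → ℕ :=
  Nat.rec (motive := fun _ => ℕ → ℕ → ℕ) (fun _ x => x)
    (fun _ ih w x => cond (Nat.beq w 0) x (ih (Nat.div w B) (p (Nat.mod w B) x))) f

/-- The group element of a word. -/
noncomputable def gW {G : Type*} [Group G] (g : ℕ → G) (B f : ℕ) : ℕ → G :=
  Nat.rec (motive := fun _ => ℕ → G) (fun _ => 1)
    (fun _ ih w => cond (Nat.beq w 0) 1 (ih (Nat.div w B) * g (Nat.mod w B))) f

theorem evW_succ (p : ℕ → ℕ → ℕ) (B f w x : ℕ) :
    evW p B (f + 1) w x = if w = 0 then x else evW p B f (w / B) (p (w % B) x) := by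
  by_cases h : w = 0
  · subst h; rfl
  · rw [if_neg h]
    have : Nat.beq w 0 = false := by
      cases w with
      | zero => exact absurd rfl h
      | succ n => rfl
    change cond (Nat.beq w 0) _ _ = _
    rw [this]; rfl

theorem gW_succ {G : Type*} [Group G] (g : ℕ → G) (B f w : ℕ) :
    gW g B (f + 1) w = if w = 0 then 1 else gW g B f (w / B) * g (w % B) := by
  by_cases h : w = 0
  · subst h; rfl
  · rw [if_neg h]
    have : Nat.beq w 0 = false := by
      cases w with
      | zero => exact absurd rfl h
      | succ n => rfl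
    change cond (Nat.beq w 0) _ _ = _
    rw [this]; rfl

theorem gW_mem {G : Type*} [Group G] (g : ℕ → G) (B : ℕ) (K : Subgroup G) (hK : ∀ k, g k ∈ K) :
    ∀ f w, gW g B f w ∈ K := by
  intro f
  induction f with
  | zero => intro w; exact K.one_mem
  | succ f ih =>
    intro w
    rw [gW_succ]
    split_ifs
    · exact K.one_mem
    · exact K.mul_mem (ih _) (hK _)

/-- A relation between group elements and maps on numbers that is closed under products holds for words. -/
theorem word_rel {G : Type*} [Group G] (g : ℕ → G) (p : ℕ → ℕ → ℕ) (B : ℕ)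
    (R : G → ℕ → ℕ → Prop) (h1 : ∀ x, R 1 x x)
    (hm : ∀ a k x y, R a (p k x) y → R (a * g k) x y) :
    ∀ f w x, R (gW g B f w) x (evW p B f w x) := by
  intro f
  induction f with
  | zero => intro w x; exact h1 x
  | succ f ih =>
    intro w x
    rw [gW_succ, evW_succ]
    split_ifs
    · exact h1 x
    · exact hm _ _ _ _ (ih _ _)

end Cfsg.Agent.Cert
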