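import Cfsg.Agent.Cert.Basic

/-!
Certified coset tables and maximality.
-/

set_option autoImplicit false

namespace Cfsg.Agent.Cert

section real

variable {G X : Type*} [Group G] [MulAction G X]

/-- The letters `g k` (`k < B`) permute the points `V x` (`x < N`) according to `p`. -/
def Rl (g : ℕ → G) (p : ℕ → ℕ → ℕ) (B N : ℕ) (V : ℕ → X) : Prop :=
  ∀ k < B, ∀ x < N, p k x < N ∧ g k • V x = V (p k x)

theorem Rl.word {g : ℕ → G} {p : ℕ → ℕ → ℕ} {B N : ℕ} {V : ℕ → X} (h : Rl g p B N V) (hB : 0 < B) :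
    ∀ f w x, x < N → evW p B f w x < N ∧ gW g B f w • V x = V (evW p B f w x) := by
  intro f
  induction f with
  | zero => intro w x hx; exact ⟨hx, one_smul _ _⟩
  | succ f ih =>
    intro w x hx
    rw [gW_succ, evW_succ]
    split_ifs
    · exact ⟨hx, one_smul _ _⟩
    · obtain ⟨h1, h2⟩ := h (w % B) (Nat.mod_lt _ hB) x hx
      refine ⟨(ih _ _ h1).1, ?_⟩
      rw [mul_smul, h2, (ih _ _ h1).2]

theorem Rl.mono {g : ℕ → G} {p : ℕ → ℕ → ℕ} {B N : ℕ} {V : ℕ → X} (h : Rl g p B N V) {B' : ℕ}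
    (hB : B' ≤ B) : Rl g p B' N V := fun k hk => h k (lt_of_lt_of_le hk hB)

theorem Rl.restrict {g : ℕ → G} {p : ℕ → ℕ → ℕ} {B N : ℕ} {V : ℕ → X} (h : Rl g p B N V) {B' N' : ℕ}
    (hB : B' ≤ B) (hN : N' ≤ N) (hp : ∀ k < B', ∀ x < N', p k x < N') : Rl g p B' N' V :=
  fun k hk x hx => ⟨hp k hk x hx, (h k (lt_of_lt_of_le hk hB) x (lt_of_lt_of_le hx hN)).2⟩

/-- New letters given as words. -/
theorem Rl.words {g : ℕ → G} {p : ℕ → ℕ → ℕ} {B N : ℕ} {V : ℕ → X} (h : Rl g p B N V) (hB : 0 < B)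
    (f : ℕ) (w : ℕ → ℕ) (B' : ℕ) :
    Rl (fun k => gW g B f (w k)) (fun k => evW p B f (w k)) B' N V :=
  fun k _ x hx => h.word hB f (w k) x hx

theorem Rl.congr {g : ℕ → G} {p p' : ℕ → ℕ → ℕ} {B N : ℕ} {V : ℕ → X} (h : Rl g p B N V)
    (hp : ∀ k < B, ∀ x < N, p' k x = p k x) : Rl g p' B N V :=
  fun k hk x hx => by rw [hp k hk x hx]; exact h k hk x hx

theorem gW_mem' (g : ℕ → G) {B : ℕ} (hB : 0 < B) (K : Subgroup G) (hK : ∀ k < B, g k ∈ K) :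
    ∀ f w, gW g B f w ∈ K := by
  intro f
  induction f with
  | zero => intro w; exact K.one_mem
  | succ f ih =>
    intro w
    rw [gW_succ]
    split_ifs
    · exact K.one_mem
    · exact K.mul_mem (ih _) (hK _ (Nat.mod_lt _ hB))

/-- The subgroup generated by the letters. -/
def gen (g : ℕ → G) (B : ℕ) : Subgroup G := Subgroup.closure {a | ∃ k < B, a = g k}

theorem mem_gen (g : ℕ → G) {B k : ℕ} (hk : k < B) : g k ∈ gen g B :=
  Subgroup.subset_closure ⟨k, hk, rfl⟩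

theorem gW_mem_gen (g : ℕ → G) {B : ℕ} (hB : 0 < B) (f w : ℕ) : gW g B f w ∈ gen g B :=
  gW_mem' g hB _ (fun _ hk => mem_gen g hk) f w

theorem gen_le {g : ℕ → G} {B : ℕ} {L : Subgroup G} (h : ∀ k < B, g k ∈ L) : gen g B ≤ L := by
  rw [gen, Subgroup.closure_le]
  rintro a ⟨k, hk, rfl⟩
  exact h k hk

/-- The generated subgroup permutes the table, if the letters are involutions. -/
theorem Rl.gen {g : ℕ → G} {p : ℕ → ℕ → ℕ} {B N : ℕ} {V : ℕ → X} (h : Rl g p B N V)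
    (hi : ∀ k < B, g k * g k = 1) {a : G} (ha : a ∈ gen g B) :
    ∀ x < N, ∃ y < N, a • V x = V y := by
  induction ha using Subgroup.closure_induction_left with
  | one => intro x hx; exact ⟨x, hx, one_smul _ _⟩
  | mul_left b hb c _ ih =>
    obtain ⟨k, hk, rfl⟩ := hb
    intro x hx
    obtain ⟨y, hy, e⟩ := ih x hx
    exact ⟨p k y, (h k hk y hy).1, by rw [mul_smul, e, (h k hk y hy).2]⟩
  | inv_mul_cancel b hb c _ ih =>
    obtain ⟨k, hk, rfl⟩ := hb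
    intro x hx
    obtain ⟨y, hy, e⟩ := ih x hx
    have : (g k)⁻¹ = g k := inv_eq_of_mul_eq_one_right (hi k hk)
    exact ⟨p k y, (h k hk y hy).1, by rw [this, mul_smul, e, (h k hk y hy).2]⟩

/-- The first `nb` points form a base. -/
def Base (G : Type*) [Group G] [MulAction G X] (V : ℕ → X) (nb : ℕ) : Prop :=
  ∀ a b : G, (∀ x < nb, a • V x = b • V x) → a = b

theorem Rl.invol {g : ℕ → G} {p : ℕ → ℕ → ℕ} {B N nb : ℕ} {V : ℕ → X} (h : Rl g p B N V)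
    (hb : Base G V nb) (hn : nb ≤ N) (hp : ∀ k < B, ∀ x < nb, p k (p k x) = x) :
    ∀ k < B, g k * g k = 1 := by
  intro k hk
  apply hb
  intro x hx
  have h1 := h k hk x (lt_of_lt_of_le hx hn)
  rw [mul_smul, h1.2, (h k hk _ h1.1).2, hp k hk x hx, one_smul]

/-- One entry of a coset table. -/
noncomputable def chkCos (p : ℕ → ℕ → ℕ) (B f : ℕ) (p' : ℕ → ℕ → ℕ) (B' f' : ℕ) (nb d n : ℕ)
    (τ : ℕ → ℕ → ℕ) (tw : ℕ → ℕ) (uw : ℕ → ℕ → ℕ) (k i : ℕ) : Bool :=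
  and (Nat.blt (τ k i) n) (allR (fun x => Nat.beq (p k (evW p B f (tw i) x))
    (evW p B f (tw (τ k i)) (evW p' B' f' (uw k i) x))) 0 nb d)

theorem cos_of_chk {g g' : ℕ → G} {p p' : ℕ → ℕ → ℕ} {B B' N N' nb : ℕ} {V : ℕ → X}
    (h : Rl g p B N V) (h' : Rl g' p' B' N' V) (hB : 0 < B) (hB' : 0 < B') (hb : Base G V nb)
    (hn : nb ≤ N') (hN : N' ≤ N) (U : Subgroup G) (hU : ∀ k < B', g' k ∈ U)
    {f f' d n : ℕ} {τ : ℕ → ℕ → ℕ} {tw : ℕ → ℕ} {uw : ℕ → ℕ → ℕ}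
    (hc : ∀ k < B, ∀ i < n, chkCos p B f p' B' f' nb d n τ tw uw k i = true) :
    Rl g τ B n (fun i => ((gW g B f (tw i) : G) : G ⧸ U)) := by
  intro k hk i hi
  have := hc k hk i hi
  unfold chkCos at this
  rw [Bool.and_eq_true] at this
  refine ⟨Nat.blt_eq.mp this.1, ?_⟩
  have e : g k * gW g B f (tw i) = gW g B f (tw (τ k i)) * gW g' B' f' (uw k i) := by
    apply hb
    intro x hx
    have h0 := Nat.eq_of_beq_eq_true (allR_lt this.2 x hx)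
    have hx' : x < N' := lt_of_lt_of_le hx hn
    have h1 := h.word hB f (tw i) x (lt_of_lt_of_le hx' hN)
    have h2 := h'.word hB' f' (uw k i) x hx'
    have h3 := h.word hB f (tw (τ k i)) _ (lt_of_lt_of_le h2.1 hN)
    rw [mul_smul, mul_smul, h1.2, h2.2, h3.2, (h k hk _ h1.1).2, h0]
  change ((g k * gW g B f (tw i) : G) : G ⧸ U) = _
  rw [e, QuotientGroup.mk_mul_of_mem _ (gW_mem' g' hB' U hU _ _)]

end real

section maxi

variable {G : Type*} [Group G]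

/-- Every element of the generated group lies in one of the listed double cosets. -/
theorem dcos {g g' : ℕ → G} {τ τ' : ℕ → ℕ → ℕ} {B B' n : ℕ} {U : Subgroup G} {t : ℕ → G}
    (h : Rl g τ B n (fun i => (t i : G ⧸ U))) (h' : Rl g' τ' B' n (fun i => (t i : G ⧸ U)))
    (hi : ∀ k < B, g k * g k = 1) (hB' : 0 < B') (hU : ∀ k < B', g' k ∈ U) (h0 : t 0 = 1) (hn : 0 < n)
    {f : ℕ} {r dw : ℕ → ℕ} (hd : ∀ i < n, r i < n ∧ evW τ' B' f (dw i) (r i) = i)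
    {a : G} (ha : a ∈ gen g B) (haU : a ∉ U) :
    ∃ i < n, i ≠ 0 ∧ ∃ u ∈ U, ∃ u' ∈ U, a = u * t (r i) * u' := by
  obtain ⟨i, hi', e⟩ := h.gen hi ha 0 hn
  simp only [h0] at e
  have e1 : ((a : G) : G ⧸ U) = t i := by
    rw [← e]; change _ = ((a * 1 : G) : G ⧸ U); rw [mul_one]
  refine ⟨i, hi', ?_, gW g' B' f (dw i), gW_mem' g' hB' U hU _ _, ?_⟩
  · rintro rfl
    rw [h0] at e1
    apply haU
    have := QuotientGroup.eq.mp e1.symm
    simpa using this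
  · have e2 := (h'.word hB' f (dw i) (r i) (hd i hi').1).2
    rw [(hd i hi').2] at e2
    have e3 : ((gW g' B' f (dw i) * t (r i) : G) : G ⧸ U) = a := by rw [e1, ← e2]; rfl
    refine ⟨_, QuotientGroup.eq.mp e3, ?_⟩
    group

/-- Extending the letters by one element. -/
def ext1 {α : Type*} (g : ℕ → α) (B : ℕ) (a : α) (k : ℕ) : α := cond (Nat.blt k B) (g k) a

theorem ext1_lt {α : Type*} (g : ℕ → α) {B k : ℕ} (a : α) (hk : k < B) : ext1 g B a k = g k := by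
  unfold ext1; rw [Nat.blt_eq.mpr hk]; rfl

theorem ext1_ge {α : Type*} (g : ℕ → α) {B k : ℕ} (a : α) (hk : ¬ k < B) : ext1 g B a k = a := by
  unfold ext1
  have : Nat.blt k B = false := by
    cases h : Nat.blt k B
    · rfl
    · exact absurd (Nat.blt_eq.mp h) hk
  rw [this]; rfl

/-- `U` and the representative number `j` generate everything. -/
theorem gen_le_of {g g' : ℕ → G} {τ τ' : ℕ → ℕ → ℕ} {B B' n f : ℕ} {U : Subgroup G} {tw : ℕ → ℕ}
    (h : Rl g τ B n (fun i => ((gW g B f (tw i) : G) : G ⧸ U)))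
    (h' : Rl g' τ' B' n (fun i => ((gW g B f (tw i) : G) : G ⧸ U)))
    (hB : 0 < B) (hU : ∀ k < B', g' k ∈ U) (h0 : gW g B f (tw 0) = 1) (hn : 0 < n)
    (j : ℕ) {f' : ℕ} {w : ℕ → ℕ}
    (hw : ∀ k < B, evW (ext1 τ' B' (evW τ B f (tw j))) (B' + 1) f' (w k) 0 = τ k 0)
    {L : Subgroup G} (hL : U ≤ L) (hj : gW g B f (tw j) ∈ L) : gen g B ≤ L := by
  have h2 : Rl (ext1 g' B' (gW g B f (tw j))) (ext1 τ' B' (evW τ B f (tw j))) (B' + 1) n
      (fun i => ((gW g B f (tw i) : G) : G ⧸ U)) := by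
    intro k _ x hx
    by_cases hk : k < B'
    · rw [ext1_lt _ _ hk, ext1_lt _ _ hk]; exact h' k hk x hx
    · rw [ext1_ge _ _ hk, ext1_ge _ _ hk]; exact h.word hB f _ x hx
  have h3 : ∀ k < B' + 1, ext1 g' B' (gW g B f (tw j)) k ∈ L := by
    intro k _
    by_cases hk : k < B'
    · rw [ext1_lt _ _ hk]; exact hL (hU k hk)
    · rw [ext1_ge _ _ hk]; exact hj
  apply gen_le
  intro k hk
  have e1 := (h2.word (Nat.succ_pos _) f' (w k) 0 hn).2
  have e2 := (h k hk 0 hn).2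
  simp only [hw k hk] at e1
  beta_reduce at e2
  rw [← e2] at e1
  simp only [h0] at e1
  have e3 : ((gW (ext1 g' B' (gW g B f (tw j))) (B' + 1) f' (w k) * 1 : G) : G ⧸ U) =
      ((g k * 1 : G) : G ⧸ U) := e1
  have e4 := hL (QuotientGroup.eq.mp e3)
  have e5 := gW_mem' _ (Nat.succ_pos _) L h3 f' (w k)
  have := L.mul_mem e5 e4
  simpa using this

theorem gW_zero (g : ℕ → G) (B f : ℕ) : gW g B f 0 = 1 := by
  cases f with
  | zero => rfl
  | succ f => rw [gW_succ, if_pos rfl]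

/-- Maximality of `U` in the generated group. -/
theorem max_cert {g g' : ℕ → G} {τ τ' : ℕ → ℕ → ℕ} {B B' n f : ℕ} {U : Subgroup G} {tw : ℕ → ℕ}
    (h : Rl g τ B n (fun i => ((gW g B f (tw i) : G) : G ⧸ U)))
    (h' : Rl g' τ' B' n (fun i => ((gW g B f (tw i) : G) : G ⧸ U)))
    (hi : ∀ k < B, g k * g k = 1) (hB : 0 < B) (hB' : 0 < B') (hU : ∀ k < B', g' k ∈ U)
    (h0 : tw 0 = 0) (hn : 0 < n) {f₁ f₂ : ℕ} {r dw : ℕ → ℕ} {w : ℕ → ℕ → ℕ}
    (hd : ∀ i < n, r i < n ∧ evW τ' B' f₁ (dw i) (r i) = i)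
    (hw : ∀ i < n, i ≠ 0 → ∀ k < B,
      evW (ext1 τ' B' (evW τ B f (tw (r i)))) (B' + 1) f₂ (w i k) 0 = τ k 0)
    {L : Subgroup G} (hL : U ≤ L) (hLK : L ≤ gen g B) (hLU : ¬ L ≤ U) : gen g B ≤ L := by
  have h0' : gW g B f (tw 0) = 1 := by rw [h0, gW_zero]
  obtain ⟨a, haL, haU⟩ := SetLike.not_le_iff_exists.mp hLU
  obtain ⟨i, hi', hi0, u, hu, u', hu', e⟩ :=
    dcos (t := fun i => gW g B f (tw i)) h h' hi hB' hU h0' hn hd (hLK haL) haU
  refine gen_le_of h h' hB hU h0' hn (r i) (hw i hi' hi0) hL ?_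
  have : gW g B f (tw (r i)) = u⁻¹ * a * u'⁻¹ := by rw [e]; group
  rw [this]
  exact L.mul_mem (L.mul_mem (L.inv_mem (hL hu)) haL) (L.inv_mem (hL hu'))

/-- Boolean form of the double coset check. -/
noncomputable def chkD (τ' : ℕ → ℕ → ℕ) (B' f₁ n : ℕ) (r dw : ℕ → ℕ) (i : ℕ) : Bool :=
  and (Nat.blt (r i) n) (Nat.beq (evW τ' B' f₁ (dw i) (r i)) i)

theorem chkD_spec {τ' : ℕ → ℕ → ℕ} {B' f₁ n : ℕ} {r dw : ℕ → ℕ} {i : ℕ}
    (h : chkD τ' B' f₁ n r dw i = true) : r i < n ∧ evW τ' B' f₁ (dw i) (r i) = i := by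
  unfold chkD at h
  rw [Bool.and_eq_true] at h
  exact ⟨Nat.blt_eq.mp h.1, Nat.eq_of_beq_eq_true h.2⟩

end maxi

end Cfsg.Agent.Cert
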