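import Cfsg.Agent.Cert.Basic
import Cfsg.Prelude.Def_Chevalley

/-!
Vectors over the field with four elements as bit strings.
-/

set_option autoImplicit false

namespace Cfsg.Agent.Cert

open Matrix

/-- Bit test. -/
def bit (n j : ℕ) : Bool := Nat.beq (Nat.mod (Nat.shiftRight n j) 2) 1

theorem bit_eq (n j : ℕ) : bit n j = n.testBit j := by
  rw [Nat.testBit_eq_decide_div_mod_eq]
  unfold bit
  change Nat.beq ((n >>> j) % 2) 1 = _
  rw [Nat.shiftRight_eq_div_pow]
  by_cases h : n / 2 ^ j % 2 = 1
  · rw [h]; rfl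
  · have : n / 2 ^ j % 2 = 0 := by omega
    rw [this]; rfl

/-- Apply the additive map with packed columns `M` (`w` bits, `Q = 2 ^ w`) to the first `j` bits of `n`. -/
noncomputable def app (M w Q n j : ℕ) : ℕ :=
  Nat.rec (motive := fun _ => ℕ) 0 (fun i acc => cond (bit n i) (Nat.xor acc (lk M w Q i)) acc) j

/-- Product of codes of elements of the field with four elements. -/
def fm (a b : ℕ) : ℕ := lk 0x9c78e400 2 4 (Nat.add (Nat.mul 4 a) b)

/-- Power of codes. -/
def fp (a : ℕ) : ℕ → ℕ
  | 0 => 1
  | k + 1 => fm (fp a k) a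

theorem fm_lt (a b : ℕ) : fm a b < 4 := Nat.mod_lt _ (by norm_num)

theorem fp_lt (a k : ℕ) : fp a k < 4 := by
  cases k with
  | zero => simp [fp]
  | succ k => exact fm_lt _ _

/-- A field of characteristic two with a primitive cube root of unity. -/
structure W4 {F : Type*} [Field F] (ω : F) : Prop where
  two : (2 : F) = 0
  sq : ω * ω = ω + 1

section field

variable {F : Type*} [Field F] {ω : F}

/-- The element with a given code. -/
def el (ω : F) (c : ℕ) : F := (if c.testBit 0 then 1 else 0) + (if c.testBit 1 then ω else 0)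

theorem W4.add_self (h : W4 ω) (x : F) : x + x = 0 := by rw [← two_mul, h.two, zero_mul]

theorem W4.ne_zero (h : W4 ω) : ω ≠ 0 := by
  intro h0
  have := h.sq
  rw [h0] at this
  simp at this

theorem W4.ne_one (h : W4 ω) : ω ≠ 1 := by
  intro h0
  have := h.sq
  rw [h0, h.add_self] at this
  simp at this

theorem W4.add_one_ne (h : W4 ω) : 1 + ω ≠ 0 := by
  intro h0
  apply h.ne_one
  have := h.add_self 1
  linear_combination h0 - this

theorem W4.ite_xor (h : W4 ω) (a b : Bool) (x : F) :
    (if (a ^^ b) = true then x else 0) = (if a = true then x else 0) + (if b = true then x else 0) := by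
  cases a <;> cases b <;> simp [h.add_self]

theorem W4.el_xor (h : W4 ω) (a b : ℕ) : el ω (a ^^^ b) = el ω a + el ω b := by
  unfold el
  rw [Nat.testBit_xor, Nat.testBit_xor, h.ite_xor, h.ite_xor]
  ring

theorem el_zero : el ω 0 = 0 := by simp [el]
theorem el_one : el ω 1 = 1 := by
  have : Nat.testBit 1 1 = false := by decide
  simp [el, this]
theorem el_two : el ω 2 = ω := by
  have h1 : Nat.testBit 2 1 = true := by decide
  have h0 : Nat.testBit 2 0 = false := by decide
  simp only [el, h1, h0]; simp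
theorem el_three : el ω 3 = 1 + ω := by
  have h1 : Nat.testBit 3 1 = true := by decide
  have h0 : Nat.testBit 3 0 = true := by decide
  simp only [el, h1, h0]; simp

theorem W4.el_fm (h : W4 ω) {a b : ℕ} (ha : a < 4) (hb : b < 4) : el ω (fm a b) = el ω a * el ω b := by
  have h2 := h.two
  have hs := h.sq
  have e : ∀ a < 4, ∀ b < 4, fm a b = if a = 0 ∨ b = 0 then 0 else if a = 1 then b else if b = 1 then a
    else if a = b then 5 - a else 1 := by decide
  rw [e a ha b hb]
  interval_cases a <;> interval_cases b <;> simp [el_zero, el_one, el_two, el_three]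
  · linear_combination -hs
  · linear_combination -hs - ω * h2
  · linear_combination -hs - ω * h2
  · linear_combination -hs - (ω + 1) * h2

theorem W4.el_fp (h : W4 ω) {a : ℕ} (ha : a < 4) (k : ℕ) : el ω (fp a k) = el ω a ^ k := by
  induction k with
  | zero => simp [fp, el_one]
  | succ k ih => rw [fp, h.el_fm (fp_lt _ _) ha, ih, pow_succ]

theorem W4.el_inj (h : W4 ω) {a b : ℕ} (e : el ω a = el ω b) :
    a.testBit 0 = b.testBit 0 ∧ a.testBit 1 = b.testBit 1 := by
  have e2 : el ω (a ^^^ b) = 0 := by rw [h.el_xor, e, h.add_self]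
  unfold el at e2
  rw [Nat.testBit_xor, Nat.testBit_xor] at e2
  have h1 := h.ne_zero
  have h2 := h.add_one_ne
  revert e2
  cases a.testBit 0 <;> cases b.testBit 0 <;> cases a.testBit 1 <;> cases b.testBit 1 <;> simp [h1, h2]

theorem W4.intCast (h : W4 ω) (m : ℤ) : (m : F) = if m % 2 = 1 then 1 else 0 := by
  have e : m = 2 * (m / 2) + m % 2 := by omega
  conv_lhs => rw [e]
  push_cast
  rw [h.two, zero_mul, zero_add]
  split_ifs with h1
  · rw [h1]; simp
  · have : m % 2 = 0 := by omega
    rw [this]; simp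

/-- Evaluation of an integer polynomial, given by its terms, at a code. -/
def evP (t : ℕ) : List (ℕ × ℤ) → ℕ
  | [] => 0
  | km :: l => if km.2 % 2 = 1 then Nat.xor (fp t km.1) (evP t l) else evP t l

theorem W4.el_evP (h : W4 ω) {t : ℕ} (ht : t < 4) (l : List (ℕ × ℤ)) :
    el ω (evP t l) = (l.map fun km => ((km.2 : ℤ) : F) * el ω t ^ km.1).sum := by
  induction l with
  | nil => simp [evP, el_zero]
  | cons km l ih =>
    rw [evP, List.map_cons, List.sum_cons, h.intCast km.2]
    split_ifs
    · rw [one_mul, ← ih, ← h.el_fp ht]; exact h.el_xor _ _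
    · rw [zero_mul, zero_add, ih]

theorem evP_lt (t : ℕ) (l : List (ℕ × ℤ)) : evP t l < 4 := by
  induction l with
  | nil => simp [evP]
  | cons km l ih =>
    rw [evP]
    split_ifs
    · exact Nat.xor_lt_two_pow (n := 2) (fp_lt _ _) ih
    · exact ih

theorem exists_W4 [Fintype F] (hF : Fintype.card F = 4) :
    ∃ ω : F, W4 ω ∧ ∀ x : F, ∃ c < 4, x = el ω c := by
  classical
  have h2 : (2 : F) = 0 := by
    have h4 : ((4 : ℕ) : F) = 0 := by rw [← hF]; exact FiniteField.cast_card_eq_zero F
    have : (2 : F) * 2 = 0 := by rw [← h4]; norm_num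
    simpa using this
  obtain ⟨ω, hω⟩ : ∃ ω : F, ω ∉ ({0, 1} : Finset F) := by
    by_contra hc
    push Not at hc
    have : (Finset.univ : Finset F) ⊆ {0, 1} := fun x _ => hc x
    have h3 := Finset.card_le_card this
    have h4 : ({0, 1} : Finset F).card ≤ 2 := Finset.card_le_two
    rw [Finset.card_univ, hF] at h3
    omega
  simp only [Finset.mem_insert, Finset.mem_singleton, not_or] at hω
  have hp : ω ^ 4 = ω := by rw [← hF]; exact FiniteField.pow_card ω
  have hW : W4 ω := by
    refine ⟨h2, ?_⟩
    have : ω * (ω - 1) * (ω * ω + ω + 1) = 0 := by linear_combination hp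
    have h3 : ω * ω + ω + 1 = 0 := by
      rcases mul_eq_zero.mp this with h | h
      · rcases mul_eq_zero.mp h with h | h
        · exact absurd h hω.1
        · exact absurd (sub_eq_zero.mp h) hω.2
      · exact h
    linear_combination h3 - (ω + 1) * h2
  refine ⟨ω, hW, ?_⟩
  have hinj : Function.Injective (fun c : Fin 4 => el ω c) := by
    intro a b e
    have := hW.el_inj e
    revert this
    fin_cases a <;> fin_cases b <;> decide
  have hb := (Fintype.bijective_iff_injective_and_card _).mpr ⟨hinj, by simp [hF]⟩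
  intro x
  obtain ⟨c, hc⟩ := hb.2 x
  exact ⟨c, c.2, hc.symm⟩

variable {ι : Type*}

/-- The code of the coordinate at position `i`. -/
def cd (d n i : ℕ) : ℕ := cond (bit n i) 1 0 + cond (bit n (Nat.add d i)) 2 0

/-- The vector with a given code. -/
def dec (ω : F) (d : ℕ) (pos : ι → ℕ) (n : ℕ) : ι → F :=
  fun i => (if n.testBit (pos i) then 1 else 0) + (if n.testBit (d + pos i) then ω else 0)

theorem dec_eq_el (d : ℕ) (pos : ι → ℕ) (n : ℕ) (i : ι) : dec ω d pos n i = el ω (cd d n (pos i)) := by
  unfold dec cd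
  rw [bit_eq, bit_eq]
  change _ = el ω (cond (n.testBit (pos i)) 1 0 + cond (n.testBit (d + pos i)) 2 0)
  cases n.testBit (pos i) <;> cases n.testBit (d + pos i) <;> simp [el_zero, el_one, el_two, el_three]

theorem W4.dec_xor (h : W4 ω) (d : ℕ) (pos : ι → ℕ) (a b : ℕ) :
    dec ω d pos (a ^^^ b) = dec ω d pos a + dec ω d pos b := by
  funext i
  simp only [dec, Pi.add_apply]
  rw [Nat.testBit_xor, Nat.testBit_xor, h.ite_xor, h.ite_xor]
  ring

theorem dec_zero (d : ℕ) (pos : ι → ℕ) : dec ω d pos 0 = 0 := by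
  funext i; simp [dec]

theorem dec_mod {d : ℕ} {pos : ι → ℕ} (hp : ∀ i, pos i < d) (n : ℕ) :
    dec ω d pos (n % 2 ^ (2 * d)) = dec ω d pos n := by
  funext i
  have h1 : pos i < 2 * d := by have := hp i; omega
  have h2 : d + pos i < 2 * d := by have := hp i; omega
  simp [dec, Nat.testBit_mod_two_pow, h1, h2]

theorem W4.dec_inj (h : W4 ω) {d : ℕ} {pos : ι → ℕ} (hs : ∀ j < d, ∃ i, pos i = j) {a b : ℕ}
    (ha : a < 2 ^ (2 * d)) (hb : b < 2 ^ (2 * d)) (e : dec ω d pos a = dec ω d pos b) : a = b := by
  have key : ∀ j < d, a.testBit j = b.testBit j ∧ a.testBit (d + j) = b.testBit (d + j) := by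
    intro j hj
    obtain ⟨i, rfl⟩ := hs j hj
    have e2 : dec ω d pos (a ^^^ b) i = 0 := by
      rw [h.dec_xor, e, Pi.add_apply, h.add_self]
    unfold dec at e2
    rw [Nat.testBit_xor, Nat.testBit_xor] at e2
    have h1 := h.ne_zero
    have h2 := h.add_one_ne
    revert e2
    cases a.testBit (pos i) <;> cases b.testBit (pos i) <;> cases a.testBit (d + pos i) <;>
      cases b.testBit (d + pos i) <;> simp [h1, h2]
  apply Nat.eq_of_testBit_eq
  intro j
  by_cases h1 : j < d
  · exact (key j h1).1
  by_cases h2 : j < 2 * d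
  · have := (key (j - d) (by omega)).2
    rwa [show d + (j - d) = j by omega] at this
  · rw [Nat.testBit_lt_two_pow (lt_of_lt_of_le ha (Nat.pow_le_pow_right (by norm_num) (by omega))),
      Nat.testBit_lt_two_pow (lt_of_lt_of_le hb (Nat.pow_le_pow_right (by norm_num) (by omega)))]

theorem mod_succ_xor (n j : ℕ) :
    n % 2 ^ (j + 1) = if n.testBit j then n % 2 ^ j ^^^ 2 ^ j else n % 2 ^ j := by
  apply Nat.eq_of_testBit_eq
  intro i
  split_ifs with h
  · rw [Nat.testBit_xor, Nat.testBit_mod_two_pow, Nat.testBit_mod_two_pow, Nat.testBit_two_pow]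
    by_cases h1 : i < j
    · simp [h1, show i < j + 1 by omega, show j ≠ i by omega]
    by_cases h2 : i = j
    · subst h2; simp [h]
    · simp [h1, show ¬ i < j + 1 by omega, show j ≠ i by omega]
  · rw [Nat.testBit_mod_two_pow, Nat.testBit_mod_two_pow]
    by_cases h1 : i < j
    · simp [h1, show i < j + 1 by omega]
    by_cases h2 : i = j
    · subst h2; simp [h]
    · simp [h1, show ¬ i < j + 1 by omega]

/-- An additive map that is known on the bits. -/
theorem W4.app_spec (h : W4 ω) {d : ℕ} {pos : ι → ℕ} (hp : ∀ i, pos i < d) (a : (ι → F) → (ι → F))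
    (ha : ∀ x y, a (x + y) = a x + a y) {M w Q : ℕ}
    (hM : ∀ j < 2 * d, a (dec ω d pos (2 ^ j)) = dec ω d pos (lk M w Q j)) (n : ℕ) :
    a (dec ω d pos n) = dec ω d pos (app M w Q n (2 * d)) := by
  have key : ∀ j ≤ 2 * d, a (dec ω d pos (n % 2 ^ j)) = dec ω d pos (app M w Q n j) := by
    intro j
    induction j with
    | zero =>
      intro _
      have h0 : a 0 = 0 := by
        have := ha 0 0
        rw [add_zero] at this
        simpa using this
      rw [pow_zero, Nat.mod_one, dec_zero, h0]
      exact (dec_zero _ _).symm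
    | succ j ih =>
      intro hj
      have e : app M w Q n (j + 1) =
        cond (bit n j) (app M w Q n j ^^^ lk M w Q j) (app M w Q n j) := rfl
      rw [mod_succ_xor, e, bit_eq]
      cases n.testBit j
      · simpa using ih (by omega)
      · simp only [if_true, cond_true]
        rw [h.dec_xor, h.dec_xor, ha, ih (by omega), hM j (by omega)]
  rw [← key _ le_rfl, dec_mod hp]

theorem dec_two_pow [DecidableEq ι] {d : ℕ} {pos : ι → ℕ} (hp : ∀ i, pos i < d)
    (hi : Function.Injective pos) (i : ι) :
    dec ω d pos (2 ^ pos i) = Pi.single i 1 ∧ dec ω d pos (2 ^ (d + pos i)) = Pi.single i ω := by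
  constructor
  · funext j
    have := hp i
    by_cases h : j = i
    · subst h
      simp [dec, Nat.testBit_two_pow, show ¬ d = 0 by omega]
    · have h2 : pos i ≠ pos j := fun e => h (hi e).symm
      simp [dec, Nat.testBit_two_pow, h, h2, show ¬ pos i = d + pos j by omega]
  · funext j
    have := hp j
    by_cases h : j = i
    · subst h
      simp [dec, Nat.testBit_two_pow, show ¬ d = 0 by omega]
    · have h2 : pos i ≠ pos j := fun e => h (hi e).symm
      simp [dec, Nat.testBit_two_pow, h, h2, show ¬ d + pos i = pos j by omega]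

theorem app_lt (M w n j : ℕ) : app M w (2 ^ w) n j < 2 ^ w := by
  induction j with
  | zero => exact Nat.two_pow_pos w
  | succ j ih =>
    have e : app M w (2 ^ w) n (j + 1) =
      cond (bit n j) (app M w (2 ^ w) n j ^^^ lk M w (2 ^ w) j) (app M w (2 ^ w) n j) := rfl
    rw [e]
    cases bit n j
    · exact ih
    · exact Nat.xor_lt_two_pow ih (Nat.mod_lt _ (Nat.two_pow_pos w))

theorem cd_lt (d n i : ℕ) : cd d n i < 4 := by
  unfold cd
  cases bit n i <;> cases bit n (Nat.add d i) <;> simp

theorem W4.span (h : W4 ω) (d : ℕ) (pos : ι → ℕ) (P : (ι → F) → Prop) (h0 : P 0)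
    (ha : ∀ x y, P x → P y → P (x + y)) {M w Q : ℕ} (n : ℕ) :
    ∀ j, (∀ i < j, P (dec ω d pos (lk M w Q i))) → P (dec ω d pos (app M w Q n j)) := by
  intro j
  induction j with
  | zero =>
    intro _
    change P (dec ω d pos 0)
    rw [dec_zero]; exact h0
  | succ j ih =>
    intro hj
    have e : app M w Q n (j + 1) =
      cond (bit n j) (app M w Q n j ^^^ lk M w Q j) (app M w Q n j) := rfl
    have ih' := ih fun i hi => hj i (by omega)
    rw [e]
    cases bit n j
    · exact ih'
    · simp only [cond_true]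
      rw [h.dec_xor]
      exact ha _ _ ih' (hj j (by omega))

/-- Check that the code `m` is `ω` times the code `n`. -/
noncomputable def chkW (d e n m : ℕ) : Bool :=
  allR (fun row => Nat.beq (cd d m row) (fm 2 (cd d n row))) 0 d e

theorem W4.chkW_spec (h : W4 ω) {d e : ℕ} {pos : ι → ℕ} (hp : ∀ i, pos i < d) {n m : ℕ}
    (hc : chkW d e n m = true) : dec ω d pos m = ω • dec ω d pos n := by
  funext i
  have := Nat.eq_of_beq_eq_true (allR_lt hc _ (hp i))
  rw [Pi.smul_apply, dec_eq_el, dec_eq_el, this, h.el_fm (by norm_num) (cd_lt _ _ _), el_two, smul_eq_mul]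

theorem matrix_eq_of_dec [Fintype ι] [DecidableEq ι] {d : ℕ} {pos : ι → ℕ} (hp : ∀ i, pos i < d)
    (hi : Function.Injective pos) {a b : Matrix ι ι F}
    (h : ∀ j < d, a *ᵥ dec ω d pos (2 ^ j) = b *ᵥ dec ω d pos (2 ^ j)) : a = b := by
  ext i j
  have := congrFun (h _ (hp j)) i
  rw [(dec_two_pow hp hi j).1] at this
  simpa [mulVec_single_one] using this

/-- The first `d` vectors of the table `T` span: `M` lists them and their multiples by `ω`, and `C` gives
the combinations. -/
theorem W4.base (h : W4 ω) [Fintype ι] [DecidableEq ι] {d e : ℕ} {pos : ι → ℕ} (hp : ∀ i, pos i < d)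
    (hi : Function.Injective pos) {T : ℕ → ℕ} {M w Q : ℕ} {C : ℕ → ℕ}
    (h1 : ∀ x < d, lk M w Q x = T x ∧ chkW d e (T x) (lk M w Q (d + x)) = true ∧
      app M w Q (C x) (2 * d) = 2 ^ x)
    {a b : Matrix ι ι F} (hab : ∀ x < d, a *ᵥ dec ω d pos (T x) = b *ᵥ dec ω d pos (T x)) : a = b := by
  apply matrix_eq_of_dec (ω := ω) hp hi
  intro j hj
  rw [← (h1 j hj).2.2]
  apply h.span d pos (fun v => a *ᵥ v = b *ᵥ v)
  · simp
  · intro x y hx hy
    rw [mulVec_add, mulVec_add, hx, hy]
  · intro i hi
    by_cases h2 : i < d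
    · rw [(h1 i h2).1]; exact hab i h2
    · obtain ⟨x, rfl⟩ : ∃ x, i = d + x := ⟨i - d, by omega⟩
      have hx : x < d := by omega
      rw [h.chkW_spec hp (h1 x hx).2.1, mulVec_smul, mulVec_smul, hab x hx]

end field

section chev

open Cfsg.Lie

/-- Position of a basis vector. -/
def cpos (D : ChevalleyDatum) : D.Idx → ℕ := Sum.elim (fun i => i.val) (fun u => D.rank + u.val)

theorem cpos_lt (D : ChevalleyDatum) (i : D.Idx) : cpos D i < D.rank + D.nroots := by
  rcases i with i | i
  · have := i.2; simp only [cpos, Sum.elim_inl]; omega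
  · have := i.2; simp only [cpos, Sum.elim_inr]; omega

theorem cpos_inj (D : ChevalleyDatum) : Function.Injective (cpos D) := by
  rintro (i | i) (j | j) e <;> simp only [cpos, Sum.elim_inl, Sum.elim_inr] at e
  · exact congrArg _ (Fin.ext e)
  · have := i.2; omega
  · have := j.2; omega
  · exact congrArg _ (Fin.ext (by omega))

theorem cpos_surj (D : ChevalleyDatum) (j : ℕ) (hj : j < D.rank + D.nroots) : ∃ i, cpos D i = j := by
  by_cases h : j < D.rank
  · exact ⟨Sum.inl ⟨j, h⟩, rfl⟩
  · exact ⟨Sum.inr ⟨j - D.rank, by omega⟩, by simp only [cpos, Sum.elim_inr]; omega⟩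

/-- The terms of an entry of `x_r(t)`. -/
def coefN (D : ChevalleyDatum) (r row col : ℕ) : List (ℕ × ℤ) :=
  if col < D.rank then
    (if row < D.rank then (if row = col then [(0, 1)] else [])
     else if row - D.rank = r then [(1, -((D.cartanSR.getD col #[]).getD r 0))] else [])
  else if col - D.rank = r then (if row = col then [(0, 1)] else [])
  else if col - D.rank = D.negIdx.getD r 0 then
    (if row < D.rank then [(1, (D.coroot.getD r #[]).getD row 0)]
     else if row = col then [(0, 1)] else if row - D.rank = r then [(2, -1)] else [])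
  else if row < D.rank then []
  else (if row = col then [(0, 1)] else []) ++ D.chainCoeff r (col - D.rank) (row - D.rank)

theorem xMat_eq (D : ChevalleyDatum) (F : Type*) [Field F] (r : Fin D.nroots) (t : F) (row col : D.Idx) :
    D.xMat F r t row col =
      ((coefN D r (cpos D row) (cpos D col)).map fun km => ((km.2 : ℤ) : F) * t ^ km.1).sum := by
  have hl : ∀ i : Fin D.rank, cpos D (Sum.inl i) = i.val := fun _ => rfl
  have hr : ∀ i : Fin D.nroots, cpos D (Sum.inr i) = D.rank + i.val := fun _ => rfl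
  rcases col with i | s <;> rcases row with i' | u <;> simp only [hl, hr]
  · have := i.2; have := i'.2
    simp only [ChevalleyDatum.xMat, coefN, Matrix.of_apply, Fin.ext_iff, i.2, i'.2, if_true]
    split_ifs <;> simp
  · simp only [ChevalleyDatum.xMat, coefN, Matrix.of_apply, Fin.ext_iff,
      i.2, if_true, show ¬ D.rank + u.val < D.rank by omega, if_false, Nat.add_sub_cancel_left]
    split_ifs <;> simp
  · have := i'.2
    simp only [ChevalleyDatum.xMat, coefN, Matrix.of_apply, Fin.ext_iff,
      i'.2, if_true, show ¬ D.rank + s.val < D.rank by omega, if_false, Nat.add_sub_cancel_left,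
      show ¬ i'.val = D.rank + s.val by omega]
    split_ifs <;> simp
  · simp only [ChevalleyDatum.xMat, coefN, Matrix.of_apply, Fin.ext_iff,
      show ¬ D.rank + s.val < D.rank by omega, show ¬ D.rank + u.val < D.rank by omega, if_false,
      Nat.add_sub_cancel_left, Nat.add_left_cancel_iff]
    split_ifs <;> simp_all

/-- Check that column `j` of the packed table `M` belongs to `x_r(t)`. -/
noncomputable def chkCol (D : ChevalleyDatum) (d e r t M w Q j : ℕ) : Bool :=
  allR (fun row => and (Nat.beq (cd d (lk M w Q j) row) (evP t (coefN D r row j)))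
    (Nat.beq (cd d (lk M w Q (Nat.add d j)) row) (fm (evP t (coefN D r row j)) 2))) 0 d e

theorem W4.xMat_app {F : Type*} [Field F] {ω : F} (h : W4 ω) (D : ChevalleyDatum) {d e : ℕ}
    (hd : d = D.rank + D.nroots) (r : Fin D.nroots) {t M w Q : ℕ} (ht : t < 4)
    (hc : ∀ j < d, chkCol D d e r t M w Q j = true) (n : ℕ) :
    D.xMat F r (el ω t) *ᵥ dec ω d (cpos D) n = dec ω d (cpos D) (app M w Q n (2 * d)) := by
  have hp : ∀ i, cpos D i < d := fun i => hd ▸ cpos_lt D i
  apply h.app_spec hp (fun v => D.xMat F r (el ω t) *ᵥ v) (fun x y => mulVec_add _ _ _)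
  intro j hj
  by_cases h1 : j < d
  · obtain ⟨i, rfl⟩ := cpos_surj D j (hd ▸ h1)
    funext row
    have := allR_lt (hc _ h1) _ (hp row)
    rw [Bool.and_eq_true] at this
    rw [(dec_two_pow hp (cpos_inj D) i).1, dec_eq_el, Nat.eq_of_beq_eq_true this.1, h.el_evP ht,
      ← xMat_eq]
    simp [mulVec_single_one]
  · obtain ⟨i, hi⟩ := cpos_surj D (j - d) (by omega)
    obtain rfl : j = d + cpos D i := by omega
    funext row
    have := allR_lt (hc _ (hp i)) _ (hp row)
    rw [Bool.and_eq_true] at this
    have e2 := Nat.eq_of_beq_eq_true this.2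
    rw [Nat.add_eq] at e2
    rw [(dec_two_pow hp (cpos_inj D) i).2, dec_eq_el, e2, h.el_fm (evP_lt _ _) (by norm_num), h.el_evP ht,
      ← xMat_eq, el_two]
    simp [mulVec_single]

end chev

end Cfsg.Agent.Cert
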