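import Cfsg.Agent.Cert.G2Data

/-! Kernel checks, part one: matrices. -/

set_option autoImplicit false

namespace Cfsg.Agent.Cert.G2

open Cfsg.Lie

/-- columns of the root element with code `k` -/
def xt (k : ℕ) : ℕ := lk tXT 784 (Nat.pow 2 784) k
/-- action of root elements on codes -/
noncomputable def pX (k n : ℕ) : ℕ := app (xt k) 28 268435456 n 28
/-- columns of the letters -/
def gt (k : ℕ) : ℕ := lk tGT 784 (Nat.pow 2 784) k
/-- root words of the letters -/
def lw (k : ℕ) : ℕ := lk tLW 64 (Nat.pow 2 64) k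
/-- the long root vectors -/
def tab (x : ℕ) : ℕ := lk tTAB 28 268435456 x
/-- action of the letters -/
def pp (k x : ℕ) : ℕ := lk tP 12 4096 (Nat.add (Nat.mul 4096 k) x)

theorem chk_xt : allR (fun k => allR (fun j =>
    chkCol chevG2 14 4 (k / 4) (k % 4) (xt k) 28 268435456 j) 0 14 4) 0 48 6 = true := by
  decide +kernel

theorem chk_sq : allR (fun k => allR (fun j =>
    Nat.beq (pX k (pX k (Nat.pow 2 j))) (Nat.pow 2 j)) 0 14 4) 0 48 6 = true := by
  decide +kernel

theorem chk_gt : allR (fun k => allR (fun j =>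
    Nat.beq (evW pX 48 12 (lw k) (Nat.pow 2 j)) (lk (gt k) 28 268435456 j)) 0 28 5) 0 6 3 = true := by
  decide +kernel

theorem chk_pp : allR (fun k => allR (fun x => and (Nat.blt (pp k x) 4095)
    (Nat.beq (app (gt k) 28 268435456 (tab x) 28) (tab (pp k x)))) 0 4095 12) 0 6 3 = true := by
  decide +kernel

end Cfsg.Agent.Cert.G2
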