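import Cfsg.Agent.Cert.G2Chk1

/-! Kernel checks, part two: the 416 cosets. -/

set_option autoImplicit false

namespace Cfsg.Agent.Cert.G2

/-- coset table -/
def tau (k i : ℕ) : ℕ := lk tTAU 9 512 (Nat.add (Nat.mul 512 k) i)
/-- coset representatives -/
def tw (i : ℕ) : ℕ := lk tTW 32 4294967296 i
/-- Schreier words -/
def uw (k i : ℕ) : ℕ := lk tUW 48 281474976710656 (Nat.add (Nat.mul 512 k) i)
/-- words for the root elements -/
def xw (k : ℕ) : ℕ := lk tXW 80 (Nat.pow 2 80) k
/-- orbit representatives -/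
def rG (i : ℕ) : ℕ := lk tRG 9 512 i
/-- words from the representatives -/
def dG (i : ℕ) : ℕ := lk tDG 32 4294967296 i
/-- generation words -/
def wG (i k : ℕ) : ℕ := lk tWG 32 4294967296 (Nat.add (Nat.mul 8 (lk tSG 4 16 i)) k)

theorem chk_base : allR (fun x => and (Nat.beq (lk tBM 28 268435456 x) (tab x))
    (and (chkW 14 4 (tab x) (lk tBM 28 268435456 (14 + x)))
      (Nat.beq (app tBM 28 268435456 (lk tC 28 268435456 x) (2 * 14)) (2 ^ x)))) 0 14 4 = true := by
  decide +kernel

theorem chk_inv : allR (fun k => allR (fun x => Nat.beq (pp k (pp k x)) x) 0 14 4) 0 6 3 = true := by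
  decide +kernel

theorem chk_315 : allR (fun k => allR (fun x => Nat.blt (pp k x) 315) 0 315 9) 0 5 3 = true := by
  decide +kernel

theorem chk_xw : allR (fun k => allR (fun x =>
    Nat.beq (pX k (tab x)) (tab (evW pp 6 32 (xw k) x))) 0 14 4) 0 48 6 = true := by
  decide +kernel

theorem chk_cos0 : allR (fun k => allR (fun i =>
    chkCos pp 6 32 pp 5 32 14 4 416 tau tw uw k i) 0 416 9) 0 3 2 = true := by
  decide +kernel

theorem chk_cos1 : allR (fun k => allR (fun i =>
    chkCos pp 6 32 pp 5 32 14 4 416 tau tw uw k i) 0 416 9) 3 6 2 = true := by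
  decide +kernel

theorem chk_dG : allR (fun i => and (chkD tau 5 32 416 rG dG i)
    (or (Nat.beq i 0) (or (Nat.beq (rG i) 1) (Nat.beq (rG i) 72)))) 0 416 9 = true := by
  decide +kernel

theorem chk_wG : allR (fun i => allR (fun k => Nat.beq
    (evW (ext1 tau 5 (evW tau 6 32 (tw (rG i)))) (5 + 1) 32 (wG i k) 0) (tau k 0)) 0 6 3) 1 416 9 = true := by
  decide +kernel

theorem chk_tw0 : tw 0 = 0 := by decide +kernel

end Cfsg.Agent.Cert.G2
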