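import Cfsg.Agent.Cert.G2Chk3

/-! The subgroup of `G₂(4)` generated by four long root elements: maximality and suborbits. -/

set_option autoImplicit false

namespace Cfsg.Agent.Cert.G2

open Cfsg.Lie Matrix

variable {F : Type*} [Field F] {ω : F}

/-- decoding -/
abbrev dc (ω : F) (n : ℕ) : chevG2.Idx → F := dec ω 14 (cpos chevG2) n

theorem pos_lt (i : chevG2.Idx) : cpos chevG2 i < 14 := cpos_lt chevG2 i

theorem xm_act (h : W4 ω) {k : ℕ} (hk : k < 48) (n : ℕ) :
    chevG2.xMat F ⟨k / 4, show k / 4 < 12 by omega⟩ (el ω (k % 4)) *ᵥ dc ω n = dc ω (pX k n) :=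
  h.xMat_app chevG2 (d := 14) (e := 4) rfl ⟨k / 4, show k / 4 < 12 by omega⟩ (Nat.mod_lt _ (by norm_num))
    (allR_lt (allR_lt chk_xt k hk)) n

theorem xm_sq (h : W4 ω) {k : ℕ} (hk : k < 48) :
    chevG2.xMat F ⟨k / 4, show k / 4 < 12 by omega⟩ (el ω (k % 4)) *
      chevG2.xMat F ⟨k / 4, show k / 4 < 12 by omega⟩ (el ω (k % 4)) = 1 := by
  apply matrix_eq_of_dec (ω := ω) pos_lt (cpos_inj chevG2)
  intro j hj
  have := Nat.eq_of_beq_eq_true (allR_lt (allR_lt chk_sq k hk) j hj)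
  rw [← mulVec_mulVec, xm_act h hk, xm_act h hk, one_mulVec]
  exact congrArg (dc ω) this

/-- The root elements. -/
noncomputable def X (h : W4 ω) (k : ℕ) : chevG2.group F :=
  if hk : k < 48 then
    ⟨⟨_, _, xm_sq h hk, xm_sq h hk⟩, Subgroup.subset_closure ⟨_, _, rfl⟩⟩
  else 1

theorem rl_X (h : W4 ω) : Rl (X h) pX 48 (2 ^ 28) (dc ω) := by
  intro k hk x _
  refine ⟨app_lt _ 28 _ _, ?_⟩
  rw [X, dif_pos hk]
  exact xm_act h hk x

/-- The letters. -/
noncomputable def g (h : W4 ω) (k : ℕ) : chevG2.group F := gW (X h) 48 12 (lw k)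

/-- The long root vectors. -/
def V (ω : F) (x : ℕ) : chevG2.Idx → F := dc ω (tab x)

theorem tab_lt (x : ℕ) : tab x < 2 ^ (2 * 14) := Nat.mod_lt _ (by norm_num)

theorem V_inj (h : W4 ω) {x y : ℕ} (e : V ω x = V ω y) : tab x = tab y :=
  h.dec_inj (cpos_surj chevG2) (tab_lt x) (tab_lt y) e

theorem smul_add' (a : chevG2.group F) (x y : chevG2.Idx → F) : a • (x + y) = a • x + a • y :=
  mulVec_add _ _ _

theorem rl_g (h : W4 ω) : Rl (g h) pp 6 4095 (V ω) := by
  intro k hk x hx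
  have h1 := allR_lt (allR_lt chk_pp k hk) x hx
  rw [Bool.and_eq_true] at h1
  refine ⟨Nat.blt_eq.mp h1.1, ?_⟩
  have h2 := h.app_spec pos_lt (fun v => g h k • v) (smul_add' _) (M := gt k) (w := 28) (Q := 268435456)
    (fun j hj => by
      have := Nat.eq_of_beq_eq_true (allR_lt (allR_lt chk_gt k hk) j hj)
      rw [← this]
      exact ((rl_X h).word (by norm_num) 12 (lw k) (2 ^ j)
        (Nat.pow_lt_pow_right (by norm_num) hj)).2) (tab x)
  unfold V
  rw [← Nat.eq_of_beq_eq_true h1.2]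
  exact h2

theorem base (h : W4 ω) : Base (chevG2.group F) (V ω) 14 := by
  intro a b hab
  apply Subtype.ext
  apply Units.ext
  refine h.base (d := 14) (e := 4) pos_lt (cpos_inj chevG2) (T := tab) (M := tBM) (w := 28)
    (Q := 268435456) (C := fun x => lk tC 28 268435456 x) ?_ hab
  intro x hx
  have := allR_lt chk_base x hx
  simp only [Bool.and_eq_true] at this
  exact ⟨Nat.eq_of_beq_eq_true this.1, this.2.1, Nat.eq_of_beq_eq_true this.2.2⟩

theorem invol (h : W4 ω) : ∀ k < 6, g h k * g h k = 1 :=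
  (rl_g h).invol (base h) (by norm_num) fun k hk x hx =>
    Nat.eq_of_beq_eq_true (allR_lt (allR_lt chk_inv k hk) x hx)

theorem rl_h (h : W4 ω) : Rl (g h) pp 5 315 (V ω) :=
  (rl_g h).restrict (by norm_num) (by norm_num) fun k hk x hx =>
    Nat.blt_eq.mp (allR_lt (allR_lt chk_315 k hk) x hx)

theorem gen_top (h : W4 ω) (hall : ∀ x : F, ∃ c < 4, x = el ω c) : gen (g h) 6 = ⊤ := by
  rw [eq_top_iff]
  rintro ⟨a, ha⟩ -
  induction ha using Subgroup.closure_induction with
  | one => exact Subgroup.one_mem _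
  | mul a b ha hb iha ihb => exact Subgroup.mul_mem _ iha ihb
  | inv a ha iha => exact Subgroup.inv_mem _ iha
  | mem a ha =>
    obtain ⟨r, t, e⟩ := ha
    obtain ⟨c, hc, rfl⟩ := hall t
    have hr : r.val < 12 := r.2
    have hk : 4 * r.val + c < 48 := by omega
    have e1 : X h (4 * r.val + c) = gW (g h) 6 32 (xw (4 * r.val + c)) := by
      apply base h
      intro x hx
      have h1 := Nat.eq_of_beq_eq_true (allR_lt (allR_lt chk_xw _ hk) x hx)
      rw [((rl_g h).word (by norm_num) 32 _ x (by omega)).2]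
      unfold V
      rw [← h1]
      exact (rl_X h _ hk _ (tab_lt x)).2
    have e2 : (⟨a, Subgroup.subset_closure ⟨r, _, e⟩⟩ : chevG2.group F) = X h (4 * r.val + c) := by
      rw [X, dif_pos hk]
      apply Subtype.ext
      apply Units.ext
      rw [e]
      congr 1
      · apply Fin.ext; change r.val = (4 * r.val + c) / 4; omega
      · congr 1; omega
    rw [e2, e1]
    exact gW_mem_gen _ (by norm_num) _ _

/-- The subgroup generated by the first four letters. -/
noncomputable abbrev H (h : W4 ω) : Subgroup (chevG2.group F) := gen (g h) 5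

theorem rl_cos (h : W4 ω) :
    Rl (g h) tau 6 416 (fun i => ((gW (g h) 6 32 (tw i) : chevG2.group F) : chevG2.group F ⧸ H h)) := by
  refine cos_of_chk (rl_g h) (rl_h h) (by norm_num) (by norm_num) (base h) (by norm_num) (by norm_num)
    (H h) (fun k hk => mem_gen _ hk) (f' := 32) (d := 4) (uw := uw) ?_
  intro k hk i hi
  by_cases h3 : k < 3
  · exact allR_lt (allR_lt chk_cos0 k h3) i hi
  · exact allR_lt (allR_spec chk_cos1 k (by omega) hk) i hi

theorem H_act (h : W4 ω) {a : chevG2.group F} (ha : a ∈ H h) {x : ℕ} (hx : x < 315) :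
    ∃ y < 315, a • V ω x = V ω y :=
  (rl_h h).gen (fun k hk => invol h k (by omega)) ha x hx

theorem H_ne_top (h : W4 ω) : H h ≠ ⊤ := by
  intro e
  obtain ⟨y, hy, e1⟩ := H_act h (a := g h 5) (e ▸ Subgroup.mem_top _) (x := 0) (by norm_num)
  rw [(rl_g h 5 (by norm_num) 0 (by norm_num)).2] at e1
  have := allR_lt chk_witG y hy
  rw [V_inj h e1, Nat.beq_refl] at this
  exact absurd this (by decide)

theorem dG_spec : ∀ i < 416, rG i < 416 ∧ evW tau 5 32 (dG i) (rG i) = i := fun i hi => by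
  have := allR_lt chk_dG i hi
  rw [Bool.and_eq_true] at this
  exact chkD_spec this.1

theorem H_coatom (h : W4 ω) (hall : ∀ x : F, ∃ c < 4, x = el ω c) : IsCoatom (H h) := by
  refine ⟨H_ne_top h, fun L hL => ?_⟩
  rw [eq_top_iff, ← gen_top h hall]
  refine max_cert (rl_cos h) ((rl_cos h).mono (by norm_num : 5 ≤ 6)) (invol h) (by norm_num) (by norm_num)
    (fun k hk => mem_gen _ hk) chk_tw0 (by norm_num) dG_spec (f₂ := 32) (w := wG) ?_ hL.le ?_ hL.not_ge
  · intro i hi hi0 k hk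
    exact Nat.eq_of_beq_eq_true (allR_lt (allR_spec chk_wG i (by omega) hi) k hk)
  · rw [gen_top h hall]; exact le_top

/-- Maximality of a two-point stabiliser from its certificate. -/
theorem stab_coatom (h : W4 ω) {j n k₀ y₀ : ℕ} (hj : j < 416) (hn : 0 < n) (hk₀ : k₀ < 5) (hy₀ : y₀ < 315)
    {ug tw' r d : ℕ → ℕ} {pu tau' uw' w : ℕ → ℕ → ℕ}
    (c1 : ∀ k < 8, Nat.beq (evW tau 5 32 (ug k) j) j = true)
    (c2 : ∀ k < 8, ∀ x < 315, Nat.beq (pu k x) (evW pp 5 32 (ug k) x) = true)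
    (c3 : ∀ k < 5, ∀ i < n, chkCos pp 5 32 pu 8 32 14 4 n tau' tw' uw' k i = true)
    (c4 : ∀ i < n, chkD (fun k => evW tau' 5 32 (ug k)) 8 32 n r d i = true)
    (c5 : ∀ i < n, i ≠ 0 → ∀ k < 5, Nat.beq (evW (ext1 (fun k => evW tau' 5 32 (ug k)) 8
      (evW tau' 5 32 (tw' (r i)))) (8 + 1) 32 (w i k) 0) (tau' k 0) = true)
    (c6 : tw' 0 = 0)
    (c7 : ∀ z < 315, not (Nat.beq (tab (evW pp 6 32 (tw j) z)) (tab (pp k₀ (evW pp 6 32 (tw j) y₀)))) = true) :
    IsCoatom ((H h ⊓ (H h).map (MulAut.conj (gW (g h) 6 32 (tw j))).toMonoidHom).subgroupOf (H h)) := by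
  set t := gW (g h) 6 32 (tw j) with ht
  set S := H h ⊓ (H h).map (MulAut.conj t).toMonoidHom with hS
  let g' : ℕ → chevG2.group F := fun k => gW (g h) 5 32 (ug k)
  have hg' : Rl g' pu 8 315 (V ω) :=
    ((rl_h h).words (by norm_num) 32 ug 8).congr fun k hk x hx => Nat.eq_of_beq_eq_true (c2 k hk x hx)
  have hUS : gen g' 8 ≤ S := by
    apply gen_le
    intro k hk
    refine ⟨gW_mem_gen _ (by norm_num) _ _, ?_⟩
    have e := (((rl_cos h).mono (by norm_num : 5 ≤ 6)).word (by norm_num) 32 (ug k) j hj).2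
    rw [Nat.eq_of_beq_eq_true (c1 k hk)] at e
    have e2 : ((t : chevG2.group F) : chevG2.group F ⧸ H h) = (g' k * t : chevG2.group F) := e.symm
    refine ⟨_, QuotientGroup.eq.mp e2, ?_⟩
    simp only [MulEquiv.coe_toMonoidHom, MulAut.conj_apply]
    group
  have hc := cos_of_chk (rl_h h) hg' (by norm_num) (by norm_num) (base h) (by norm_num) le_rfl
    (gen g' 8) (fun k hk => mem_gen _ hk) c3
  have hmax : ∀ L : Subgroup (chevG2.group F), gen g' 8 ≤ L → L ≤ H h → ¬ L ≤ gen g' 8 → H h ≤ L :=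
    fun L h1 h2 h3 => max_cert hc (hc.words (by norm_num) 32 ug 8) (fun k hk => invol h k (by omega))
      (by norm_num) (by norm_num) (fun k hk => mem_gen _ hk) c6 hn (fun i hi => chkD_spec (c4 i hi))
      (fun i hi hi0 k hk => Nat.eq_of_beq_eq_true (c5 i hi hi0 k hk)) h1 h2 h3
  have hne : g h k₀ ∉ S := by
    rintro ⟨-, a, ha, e⟩
    simp only [MulEquiv.coe_toMonoidHom, MulAut.conj_apply] at e
    obtain ⟨z, hz, e1⟩ := H_act h ha hy₀
    have h1 := (rl_g h).word (by norm_num) 32 (tw j) y₀ (by omega)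
    have h2 := (rl_g h).word (by norm_num) 32 (tw j) z (by omega)
    have h3 := (rl_g h k₀ (by omega) _ h1.1).2
    rw [← h1.2, ← e, ← ht, ← mul_smul, inv_mul_cancel_right, mul_smul, e1, h2.2] at h3
    have := c7 z hz
    rw [V_inj h h3, Nat.beq_refl] at this
    exact absurd this (by decide)
  constructor
  · intro e
    have : (⟨g h k₀, mem_gen _ hk₀⟩ : H h) ∈ S.subgroupOf (H h) := e ▸ Subgroup.mem_top _
    exact hne this
  · intro L hL
    have h1 : S ≤ L.map (H h).subtype := by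
      intro a ha
      exact ⟨⟨a, ha.1⟩, hL.le ha, rfl⟩
    have h2 := hmax (L.map (H h).subtype) (hUS.trans h1) (Subgroup.map_subtype_le L) (by
      intro h3
      apply hL.not_ge
      intro a ha
      exact hUS (h3 ⟨a, ha, rfl⟩))
    rw [eq_top_iff]
    intro a _
    obtain ⟨b, hb, e⟩ := h2 a.2
    rwa [← Subtype.ext e]

theorem coatom_conj {G : Type*} [Group G] (H : Subgroup G) {t u u' : G} (hu : u ∈ H) (hu' : u' ∈ H)
    (ht : IsCoatom ((H ⊓ H.map (MulAut.conj t).toMonoidHom).subgroupOf H)) :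
    IsCoatom ((H ⊓ H.map (MulAut.conj (u * t * u')).toMonoidHom).subgroupOf H) := by
  have e : (H ⊓ H.map (MulAut.conj (u * t * u')).toMonoidHom).subgroupOf H =
      ((H ⊓ H.map (MulAut.conj t).toMonoidHom).subgroupOf H).map
        (MulAut.conj (⟨u, hu⟩ : H)).toMonoidHom := by
    ext a
    simp only [Subgroup.mem_subgroupOf, Subgroup.mem_inf, Subgroup.mem_map, MulEquiv.coe_toMonoidHom,
      MulAut.conj_apply]
    constructor
    · rintro ⟨-, b, hb, e⟩
      refine ⟨⟨u, hu⟩⁻¹ * a * ⟨u, hu⟩, ⟨SetLike.coe_mem _, u' * b * u'⁻¹,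
        H.mul_mem (H.mul_mem hu' hb) (H.inv_mem hu'), ?_⟩, by group⟩
      simp only [Subgroup.coe_mul, Subgroup.coe_inv, ← e]
      group
    · rintro ⟨c, ⟨-, b, hb, e⟩, rfl⟩
      refine ⟨SetLike.coe_mem _, u'⁻¹ * b * u', H.mul_mem (H.mul_mem (H.inv_mem hu') hb) hu', ?_⟩
      simp only [Subgroup.coe_mul, Subgroup.coe_inv, ← e]
      group
  rw [e]
  exact (OrderIso.isCoatom_iff (MulEquiv.mapSubgroup (MulAut.conj (⟨u, hu⟩ : H))) _).mpr ht

theorem extreme (h : W4 ω) (hall : ∀ x : F, ∃ c < 4, x = el ω c) (x : chevG2.group F) (hx : x ∉ H h) :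
    IsCoatom ((H h ⊓ (H h).map (MulAut.conj x).toMonoidHom).subgroupOf (H h)) := by
  obtain ⟨i, hi, hi0, u, hu, u', hu', rfl⟩ := dcos (t := fun i => gW (g h) 6 32 (tw i)) (rl_cos h)
    ((rl_cos h).mono (by norm_num : 5 ≤ 6)) (invol h) (by norm_num) (fun k hk => mem_gen _ hk)
    (by simp only [chk_tw0, gW_zero]) (by norm_num) dG_spec (gen_top h hall ▸ Subgroup.mem_top x) hx
  apply coatom_conj _ hu hu'
  have := allR_lt chk_dG i hi
  simp only [Bool.and_eq_true, Bool.or_eq_true, Nat.beq_eq] at this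
  rcases this.2 with h0 | h1 | h1
  · exact absurd h0 hi0
  · rw [h1]
    exact stab_coatom h (n := 315) (k₀ := 1) (y₀ := 0) (by norm_num) (by norm_num) (by norm_num) (by norm_num)
      (allR_lt chk_ugA) (fun k hk => allR_lt (allR_lt chk_puA k hk))
      (fun k hk => allR_lt (allR_lt chk_cosA k hk)) (allR_lt chk_dA)
      (fun i hi hi0 => allR_lt (allR_spec chk_wA i (by omega) hi)) chk_twA0
      (allR_lt (allR_spec chk_witA 0 le_rfl (by norm_num)))
  · rw [h1]
    exact stab_coatom h (n := 100) (k₀ := 2) (y₀ := 0) (by norm_num) (by norm_num) (by norm_num) (by norm_num)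
      (allR_lt chk_ugB) (fun k hk => allR_lt (allR_lt chk_puB k hk))
      (fun k hk => allR_lt (allR_lt chk_cosB k hk)) (allR_lt chk_dB)
      (fun i hi hi0 => allR_lt (allR_spec chk_wB i (by omega) hi)) chk_twB0
      (allR_lt (allR_spec chk_witB 0 le_rfl (by norm_num)))

theorem V_inj315 (h : W4 ω) {x y : ℕ} (hx : x < 315) (hy : y < 315) (e : V ω x = V ω y) : x = y := by
  have e1 := V_inj h e
  by_contra hne
  rcases Nat.lt_or_gt_of_ne hne with hl | hl
  · have := allR_spec (allR_lt chk_inj x hx) y hl hy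
    rw [e1, Nat.beq_refl] at this
    exact absurd this (by decide)
  · have := allR_spec (allR_lt chk_inj y hy) x hl hx
    rw [e1, Nat.beq_refl] at this
    exact absurd this (by decide)

end Cfsg.Agent.Cert.G2
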