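import Cfsg.Prelude.Def_Spor_J2

/-! An integer model of the icosians. -/

set_option autoImplicit false

namespace Cfsg.Agent.Cert.Ico

open Quaternion Cfsg.Spor

/-- `ℤ[τ]` -/
abbrev Zt := ℤ × ℤ
/-- doubled coordinates -/
abbrev Qt := Zt × Zt × Zt × Zt

/-- product -/
def zm (a b : Zt) : Zt := (a.1 * b.1 + a.2 * b.2, a.1 * b.2 + a.2 * b.1 + a.2 * b.2)
/-- sum -/
def za (a b : Zt) : Zt := (a.1 + b.1, a.2 + b.2)
/-- difference -/
def zs (a b : Zt) : Zt := (a.1 - b.1, a.2 - b.2)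
/-- negative -/
def zn (a : Zt) : Zt := (-a.1, -a.2)
/-- multiple -/
def zk (k : ℤ) (a : Zt) : Zt := (k * a.1, k * a.2)
/-- quotient -/
def zd (k : ℤ) (a : Zt) : Zt := (a.1 / k, a.2 / k)

/-- quaternion product -/
def qm (p q : Qt) : Qt :=
  (zs (zs (zs (zm p.1 q.1) (zm p.2.1 q.2.1)) (zm p.2.2.1 q.2.2.1)) (zm p.2.2.2 q.2.2.2),
   zs (za (za (zm p.1 q.2.1) (zm p.2.1 q.1)) (zm p.2.2.1 q.2.2.2)) (zm p.2.2.2 q.2.2.1),
   za (za (zs (zm p.1 q.2.2.1) (zm p.2.1 q.2.2.2)) (zm p.2.2.1 q.1)) (zm p.2.2.2 q.2.1),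
   za (zs (za (zm p.1 q.2.2.2) (zm p.2.1 q.2.2.1)) (zm p.2.2.1 q.2.1)) (zm p.2.2.2 q.1))
/-- sum -/
def qa (p q : Qt) : Qt := (za p.1 q.1, za p.2.1 q.2.1, za p.2.2.1 q.2.2.1, za p.2.2.2 q.2.2.2)
/-- difference -/
def qs (p q : Qt) : Qt := (zs p.1 q.1, zs p.2.1 q.2.1, zs p.2.2.1 q.2.2.1, zs p.2.2.2 q.2.2.2)
/-- conjugate -/
def qst (p : Qt) : Qt := (p.1, zn p.2.1, zn p.2.2.1, zn p.2.2.2)
/-- multiple -/
def qk (k : ℤ) (p : Qt) : Qt := (zk k p.1, zk k p.2.1, zk k p.2.2.1, zk k p.2.2.2)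
/-- quotient -/
def qd (k : ℤ) (p : Qt) : Qt := (zd k p.1, zd k p.2.1, zd k p.2.2.1, zd k p.2.2.2)
/-- norm -/
def nrm (p : Qt) : Zt := za (za (za (zm p.1 p.1) (zm p.2.1 p.2.1)) (zm p.2.2.1 p.2.2.1)) (zm p.2.2.2 p.2.2.2)

/-- value of an element of `ℤ[τ]` -/
noncomputable def e1 (a : Zt) : ℝ := a.1 + a.2 * tau

/-- half of the value -/
noncomputable def hv (p : Qt) : ℍ[ℝ] := ⟨e1 p.1 / 2, e1 p.2.1 / 2, e1 p.2.2.1 / 2, e1 p.2.2.2 / 2⟩

@[simp] theorem hv_re (p : Qt) : (hv p).re = e1 p.1 / 2 := rfl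
@[simp] theorem hv_imI (p : Qt) : (hv p).imI = e1 p.2.1 / 2 := rfl
@[simp] theorem hv_imJ (p : Qt) : (hv p).imJ = e1 p.2.2.1 / 2 := rfl
@[simp] theorem hv_imK (p : Qt) : (hv p).imK = e1 p.2.2.2 / 2 := rfl
@[simp] theorem qI_re : qI.re = 0 := rfl
@[simp] theorem qI_imI : qI.imI = 1 := rfl
@[simp] theorem qI_imJ : qI.imJ = 0 := rfl
@[simp] theorem qI_imK : qI.imK = 0 := rfl

/-- the second generator -/
noncomputable def qW : ℍ[ℝ] := ⟨1 / 2, sig / 2, 0, tau / 2⟩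

@[simp] theorem qW_re : qW.re = 1 / 2 := rfl
@[simp] theorem qW_imI : qW.imI = sig / 2 := rfl
@[simp] theorem qW_imJ : qW.imJ = 0 := rfl
@[simp] theorem qW_imK : qW.imK = tau / 2 := rfl

theorem tau_sq : tau * tau = tau + 1 := by
  have := Real.mul_self_sqrt (show (0 : ℝ) ≤ 5 by norm_num)
  unfold tau
  linear_combination this / 4

theorem sig_eq : sig = 1 - tau := by unfold sig tau; ring

theorem e1_zm (a b : Zt) : e1 (zm a b) = e1 a * e1 b := by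
  simp only [e1, zm]; push_cast
  linear_combination (-(a.2 * b.2 : ℝ)) * tau_sq
theorem e1_za (a b : Zt) : e1 (za a b) = e1 a + e1 b := by simp only [e1, za]; push_cast; ring
theorem e1_zs (a b : Zt) : e1 (zs a b) = e1 a - e1 b := by simp only [e1, zs]; push_cast; ring
theorem e1_zn (a : Zt) : e1 (zn a) = - e1 a := by simp only [e1, zn]; push_cast; ring
theorem e1_zk (k : ℤ) (a : Zt) : e1 (zk k a) = k * e1 a := by simp only [e1, zk]; push_cast; ring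

theorem e1_inj {a b : Zt} (h : e1 a = e1 b) : a = b := by
  have hi : Irrational tau := Real.goldenRatio_irrational
  unfold e1 at h
  have h2 : a.2 = b.2 := by
    by_contra hne
    have h3 : ((a.2 - b.2 : ℤ) : ℝ) * tau = ((b.1 - a.1 : ℤ) : ℝ) := by push_cast; linear_combination h
    exact (hi.intCast_mul (sub_ne_zero.mpr hne)).ne_int _ h3
  have h1 : a.1 = b.1 := by
    rw [h2] at h
    exact_mod_cast add_right_cancel h
  exact Prod.ext h1 h2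

theorem hv_mul (p q : Qt) : hv p * hv q = (1 / 2 : ℝ) • hv (qm p q) := by
  ext <;> simp [qm, e1_zm, e1_za, e1_zs] <;> ring

theorem hv_qa (p q : Qt) : hv (qa p q) = hv p + hv q := by
  ext <;> simp [qa, e1_za] <;> ring

theorem hv_qs (p q : Qt) : hv (qs p q) = hv p - hv q := by
  ext <;> simp [qs, e1_zs] <;> ring

theorem hv_qst (p : Qt) : hv (qst p) = star (hv p) := by
  ext <;> simp [qst, e1_zn] <;> ring

theorem hv_qk (k : ℤ) (p : Qt) : hv (qk k p) = (k : ℝ) • hv p := by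
  ext <;> simp [qk, e1_zk] <;> ring

theorem hv_inj {p q : Qt} (h : hv p = hv q) : p = q := by
  have h1 := congrArg QuaternionAlgebra.re h
  have h2 := congrArg QuaternionAlgebra.imI h
  have h3 := congrArg QuaternionAlgebra.imJ h
  have h4 := congrArg QuaternionAlgebra.imK h
  simp only [hv] at h1 h2 h3 h4
  exact Prod.ext (e1_inj (by linarith)) (Prod.ext (e1_inj (by linarith))
    (Prod.ext (e1_inj (by linarith)) (e1_inj (by linarith))))

theorem hv_mul_star (p : Qt) : hv p * star (hv p) = ((e1 (nrm p) / 4 : ℝ) : ℍ[ℝ]) := by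
  ext <;> simp only [re_coe, imI_coe, imJ_coe, imK_coe] <;> simp [nrm, e1_zm, e1_za] <;> ring

theorem star_mul_hv (p : Qt) : star (hv p) * hv p = ((e1 (nrm p) / 4 : ℝ) : ℍ[ℝ]) := by
  ext <;> simp only [re_coe, imI_coe, imJ_coe, imK_coe] <;> simp [nrm, e1_zm, e1_za] <;> ring

/-- zero -/
def q0 : Qt := ((0, 0), (0, 0), (0, 0), (0, 0))
/-- one -/
def q1 : Qt := ((2, 0), (0, 0), (0, 0), (0, 0))
/-- two -/
def q2 : Qt := ((4, 0), (0, 0), (0, 0), (0, 0))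
/-- the icosian `h` -/
def qH : Qt := ((1, -2), (1, 0), (1, 0), (1, 0))
/-- its conjugate -/
def qHB : Qt := ((1, -2), (-1, 0), (-1, 0), (-1, 0))

theorem hv_q0 : hv q0 = 0 := by ext <;> simp [q0, e1]
theorem hv_q1 : hv q1 = 1 := by ext <;> simp [q1, e1]
theorem hv_q2 : hv q2 = 2 := by
  have : (2 : ℍ[ℝ]) = ((2 : ℝ) : ℍ[ℝ]) := by norm_cast
  rw [this]
  ext <;> simp [q2, e1]; norm_num
theorem hv_qH : hv qH = icoH := by
  ext <;> simp [hv, qH, e1, icoH, tau]; ring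
theorem hv_qHB : hv qHB = star icoH := by rw [← hv_qH, ← hv_qst]; rfl

/-- doubled coordinates from coordinates on the basis `1, i, ω, iω` -/
def D (x : Qt) : Qt :=
  (zs (za (zk 2 x.1) x.2.2.1) (zm (1, -1) x.2.2.2), za (za (zk 2 x.2.1) (zm (1, -1) x.2.2.1)) x.2.2.2,
    zn (zm (0, 1) x.2.2.2), zm (0, 1) x.2.2.1)

/-- the converse map -/
def back (c : Qt) : Qt :=
  (zd 2 (za (zs c.1 (zm (-1, 1) c.2.2.2)) (zm (1, -1) (zn (zm (-1, 1) c.2.2.1)))),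
   zd 2 (zs (zs c.2.1 (zm (1, -1) (zm (-1, 1) c.2.2.2))) (zn (zm (-1, 1) c.2.2.1))),
   zm (-1, 1) c.2.2.2, zn (zm (-1, 1) c.2.2.1))

/-- membership test -/
def isI (c : Qt) : Bool := D (back c) == c

theorem back_D (x : Qt) : back (D x) = x := by
  obtain ⟨⟨a, b⟩, ⟨c, d⟩, ⟨e, f⟩, ⟨g, h⟩⟩ := x
  simp only [back, D, zd, za, zs, zm, zn, zk, Prod.mk.injEq]
  refine ⟨⟨?_, ?_⟩, ⟨?_, ?_⟩, ⟨?_, ?_⟩, ?_, ?_⟩ <;> omega

theorem isI_D (x : Qt) : isI (D x) = true := by rw [isI, back_D]; simp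

theorem qI_mem : qI ∈ icosians := Subring.subset_closure (Or.inl rfl)
theorem qW_mem : qW ∈ icosians := Subring.subset_closure (Or.inr rfl)

theorem tau_mem : ((tau : ℝ) : ℍ[ℝ]) ∈ icosians := by
  have e : ((tau : ℝ) : ℍ[ℝ]) = 1 + qI * qW + qW * qI - qI := by
    ext <;> simp [sig_eq] <;> ring
  rw [e]
  exact icosians.sub_mem (icosians.add_mem (icosians.add_mem icosians.one_mem
    (icosians.mul_mem qI_mem qW_mem)) (icosians.mul_mem qW_mem qI_mem)) qI_mem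

theorem e1_mem (a : Zt) : ((e1 a : ℝ) : ℍ[ℝ]) ∈ icosians := by
  have e : ((e1 a : ℝ) : ℍ[ℝ]) = (a.1 : ℍ[ℝ]) + (a.2 : ℍ[ℝ]) * ((tau : ℝ) : ℍ[ℝ]) := by
    unfold e1; push_cast; rfl
  rw [e]
  exact icosians.add_mem (intCast_mem _ _) (icosians.mul_mem (intCast_mem _ _) tau_mem)

theorem hv_D_mem (x : Qt) : hv (D x) ∈ icosians := by
  have e : hv (D x) = ((e1 x.1 : ℝ) : ℍ[ℝ]) + ((e1 x.2.1 : ℝ) : ℍ[ℝ]) * qI + ((e1 x.2.2.1 : ℝ) : ℍ[ℝ]) * qW +
      ((e1 x.2.2.2 : ℝ) : ℍ[ℝ]) * (qI * qW) := by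
    have h1 : e1 (1, -1) = 1 - tau := by simp [e1]; ring
    have h2 : e1 (0, 1) = tau := by simp [e1]
    ext <;> simp [D, e1_zm, e1_za, e1_zs, e1_zn, e1_zk, sig_eq, h1, h2] <;> ring
  rw [e]
  exact icosians.add_mem (icosians.add_mem (icosians.add_mem (e1_mem _)
    (icosians.mul_mem (e1_mem _) qI_mem)) (icosians.mul_mem (e1_mem _) qW_mem))
    (icosians.mul_mem (e1_mem _) (icosians.mul_mem qI_mem qW_mem))

theorem isI_sound {c : Qt} (h : isI c = true) : hv c ∈ icosians := by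
  rw [isI, beq_iff_eq] at h
  rw [← h]; exact hv_D_mem _

theorem D_qa (x y : Qt) : D (qa x y) = qa (D x) (D y) := by
  simp only [D, qa, za, zs, zm, zn, zk, Prod.mk.injEq]
  refine ⟨⟨?_, ?_⟩, ⟨?_, ?_⟩, ⟨?_, ?_⟩, ?_, ?_⟩ <;> ring

theorem D_qk (k : ℤ) (x : Qt) : D (qk k x) = qk k (D x) := by
  simp only [D, qk, za, zs, zm, zn, zk, Prod.mk.injEq]
  refine ⟨⟨?_, ?_⟩, ⟨?_, ?_⟩, ⟨?_, ?_⟩, ?_, ?_⟩ <;> ring

/-- left multipliers of the model -/
def mult : Subring ℍ[ℝ] where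
  carrier := {a | ∀ x, ∃ y, a * hv (D x) = hv (D y)}
  one_mem' x := ⟨x, one_mul _⟩
  zero_mem' _ := ⟨q0, by rw [zero_mul, ← hv_q0]; rfl⟩
  mul_mem' {a b} ha hb x := by
    obtain ⟨y, hy⟩ := hb x
    obtain ⟨z, hz⟩ := ha y
    exact ⟨z, by rw [mul_assoc, hy, hz]⟩
  add_mem' {a b} ha hb x := by
    obtain ⟨y, hy⟩ := ha x
    obtain ⟨z, hz⟩ := hb x
    exact ⟨qa y z, by rw [add_mul, hy, hz, D_qa, hv_qa]⟩
  neg_mem' {a} ha x := by
    obtain ⟨y, hy⟩ := ha x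
    exact ⟨qk (-1) y, by rw [neg_mul, hy, D_qk, hv_qk]; simp⟩

theorem mul_eq_of {p q w : Qt} (h : qm p q = qk 2 w) : hv p * hv q = hv w := by
  rw [hv_mul, h, hv_qk, smul_smul]; simp

theorem mem_ico {q : ℍ[ℝ]} (hq : q ∈ icosians) : ∃ x, q = hv (D x) := by
  have hle : icosians ≤ mult := by
    rw [icosians, Subring.closure_le]
    rintro a (rfl | rfl) x
    · have e : qI = hv ((0, 0), (2, 0), (0, 0), (0, 0)) := by ext <;> simp [e1]
      refine ⟨(zn x.2.1, x.1, zn x.2.2.2, x.2.2.1), ?_⟩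
      rw [e]
      apply mul_eq_of
      simp only [D, qm, qk, za, zs, zm, zn, zk, Prod.mk.injEq]
      refine ⟨⟨?_, ?_⟩, ⟨?_, ?_⟩, ⟨?_, ?_⟩, ?_, ?_⟩ <;> ring
    · have e : qW = hv ((1, 0), (1, -1), (0, 0), (0, 1)) := by
        ext <;> simp [e1, sig_eq]; ring
      refine ⟨(zs (zm (-1, 1) x.2.1) x.2.2.1, za x.2.1 x.2.2.2,
        za (za x.1 x.2.2.1) (zm (-1, 1) x.2.2.2), zn x.2.1), ?_⟩
      change qW * _ = _
      rw [e]
      apply mul_eq_of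
      simp only [D, qm, qk, za, zs, zm, zn, zk, Prod.mk.injEq]
      refine ⟨⟨?_, ?_⟩, ⟨?_, ?_⟩, ⟨?_, ?_⟩, ?_, ?_⟩ <;> ring
  obtain ⟨y, hy⟩ := hle hq ((1, 0), (0, 0), (0, 0), (0, 0))
  have e : D ((1, 0), (0, 0), (0, 0), (0, 0)) = q1 := by decide
  rw [e, hv_q1, mul_one] at hy
  exact ⟨y, hy⟩

theorem isI_iff {c : Qt} : isI c = true ↔ hv c ∈ icosians := by
  refine ⟨isI_sound, fun h => ?_⟩
  obtain ⟨x, hx⟩ := mem_ico h
  rw [hv_inj hx]; exact isI_D x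

theorem star_mem {q : ℍ[ℝ]} (hq : q ∈ icosians) : star q ∈ icosians := by
  induction hq using Subring.closure_induction with
  | mem x hx =>
    rcases hx with rfl | rfl
    · have : star qI = -qI := by ext <;> simp
      rw [this]; exact icosians.neg_mem qI_mem
    · have : star qW = 1 - qW := by
        ext <;> simp; norm_num
      change star qW ∈ _
      rw [this]; exact icosians.sub_mem icosians.one_mem qW_mem
  | zero => simpa using icosians.zero_mem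
  | one => simpa using icosians.one_mem
  | add x y _ _ hx hy => rw [star_add]; exact icosians.add_mem hx hy
  | neg x _ hx => rw [star_neg]; exact icosians.neg_mem hx
  | mul x y _ _ hx hy => rw [star_mul]; exact icosians.mul_mem hy hx

/-- `w` is four times an icosian -/
def d4 (w : Qt) : Bool := (qk 4 (qd 4 w) == w) && isI (qd 4 w)

theorem qd_qk (x : Qt) : qd 4 (qk 4 x) = x := by
  obtain ⟨⟨a, b⟩, ⟨c, d⟩, ⟨e, f⟩, ⟨g, h⟩⟩ := x
  simp only [qd, qk, zd, zk, Prod.mk.injEq]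
  refine ⟨⟨?_, ?_⟩, ⟨?_, ?_⟩, ⟨?_, ?_⟩, ?_, ?_⟩ <;> omega

theorem d4_iff {w : Qt} : d4 w = true ↔ ∃ a ∈ icosians, (1 / 2 : ℝ) • hv w = 2 * a := by
  have h2 : ∀ a : ℍ[ℝ], 2 * a = (2 : ℝ) • a := fun a => by rw [two_mul, two_smul]
  constructor
  · intro h
    rw [d4, Bool.and_eq_true, beq_iff_eq] at h
    refine ⟨_, isI_sound h.2, ?_⟩
    conv_lhs => rw [← h.1]
    rw [hv_qk, smul_smul, h2]; norm_num
  · rintro ⟨a, ha, e⟩
    obtain ⟨x, rfl⟩ := mem_ico ha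
    have : w = qk 4 (D x) := by
      apply hv_inj
      rw [hv_qk]
      have := congrArg (fun q => (2 : ℝ) • q) e
      simp only [h2, smul_smul] at this
      norm_num at this ⊢
      exact this
    rw [this, d4, qd_qk, isI_D]; simp

theorem two_ne : (2 : ℍ[ℝ]) ≠ 0 := by
  rw [← hv_q2, ← hv_q0]
  intro h
  exact absurd (hv_inj h) (by decide)

theorem h_mul_star : icoH * star icoH = 2 := by
  rw [← hv_qH, ← hv_qst, ← hv_q2]; exact mul_eq_of (by decide)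

theorem star_mul_h : star icoH * icoH = 2 := by
  rw [← hv_qH, ← hv_qst, ← hv_q2]; exact mul_eq_of (by decide)

theorem left_iff {c G : Qt} {q : ℍ[ℝ]} (h1 : q * hv G = 2) (h2 : hv G * q = 2) :
    d4 (qm c G) = true ↔ hv c ∈ leftIdeal q := by
  rw [d4_iff, ← hv_mul]
  constructor
  · rintro ⟨a, ha, e⟩
    refine ⟨a, ha, ?_⟩
    have : hv c * 2 = (a * q) * 2 := by
      rw [← h2, ← mul_assoc, e, h2, mul_two, two_mul, add_mul]
    exact mul_right_cancel₀ two_ne this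
  · rintro ⟨a, ha, e⟩
    exact ⟨a, ha, by rw [e, mul_assoc, h1, mul_two, two_mul]⟩

theorem leftH_iff {c : Qt} : d4 (qm c qHB) = true ↔ hv c ∈ leftIdeal icoH :=
  left_iff (by rw [hv_qHB, h_mul_star]) (by rw [hv_qHB, star_mul_h])

theorem leftHB_iff {c : Qt} : d4 (qm c qH) = true ↔ hv c ∈ leftIdeal (star icoH) :=
  left_iff (by rw [hv_qH, star_mul_h]) (by rw [hv_qH, h_mul_star])

/-- triples -/
abbrev Tr := Qt × Qt × Qt

/-- the vector of a triple -/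
noncomputable def vec (v : Tr) : Fin 3 → ℍ[ℝ] := ![hv v.1, hv v.2.1, hv v.2.2]

/-- lattice membership test -/
def inL (v : Tr) : Bool :=
  d4 (qm (qs v.1 v.2.1) qHB) && (d4 (qm (qs v.2.1 v.2.2) qHB) && (d4 (qm (qa (qa v.1 v.2.1) v.2.2) qH) &&
    (isI v.1 && (isI v.2.1 && isI v.2.2))))

theorem inL_iff {v : Tr} : inL v = true ↔ vec v ∈ icoLeech := by
  simp only [inL, Bool.and_eq_true, leftH_iff, leftHB_iff, isI_iff, hv_qs, hv_qa, icoLeech,
    Set.mem_setOf_eq, Fin.forall_fin_succ, vec]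
  simp only [Matrix.cons_val_zero, Matrix.cons_val_succ, Matrix.cons_val_one, Matrix.cons_val,
    IsEmpty.forall_iff, and_true]
  tauto

theorem exists_vec {r : Fin 3 → ℍ[ℝ]} (hr : r ∈ icoLeech) : ∃ x y z, r = vec (D x, D y, D z) := by
  obtain ⟨x, hx⟩ := mem_ico (hr.1 0)
  obtain ⟨y, hy⟩ := mem_ico (hr.1 1)
  obtain ⟨z, hz⟩ := mem_ico (hr.1 2)
  refine ⟨x, y, z, ?_⟩
  funext t
  fin_cases t
  · exact hx
  · exact hy
  · exact hz

theorem vec_inj {v w : Tr} (h : vec v = vec w) : v = w :=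
  Prod.ext (hv_inj (congrFun h 0)) (Prod.ext (hv_inj (congrFun h 1)) (hv_inj (congrFun h 2)))

/-- inner product -/
def ip (v r : Tr) : Qt := qa (qa (qm v.1 (qst r.1)) (qm v.2.1 (qst r.2.1))) (qm v.2.2 (qst r.2.2))

theorem qip_vec (v r : Tr) : qip (vec v) (vec r) = (1 / 2 : ℝ) • hv (ip v r) := by
  simp only [qip, Fin.sum_univ_three, vec, ip, hv_qa, smul_add, ← hv_mul, hv_qst]
  rfl

/-- total norm -/
def tn (v : Tr) : Zt := za (za (nrm v.1) (nrm v.2.1)) (nrm v.2.2)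

theorem qip_self_iff {v : Tr} : qip (vec v) (vec v) = 4 ↔ tn v = (16, 0) := by
  have e : qip (vec v) (vec v) = ((e1 (tn v) / 4 : ℝ) : ℍ[ℝ]) := by
    simp only [qip, Fin.sum_univ_three, vec, tn, e1_za, Matrix.cons_val_zero, Matrix.cons_val_one,
      Matrix.cons_val, hv_mul_star]
    rw [← coe_add, ← coe_add]; congr 1; ring
  have h4 : (4 : ℍ[ℝ]) = ((4 : ℝ) : ℍ[ℝ]) := by norm_cast
  rw [e, h4, coe_inj]
  constructor
  · intro h
    apply e1_inj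
    have : e1 (16, 0) = 16 := by simp [e1]
    rw [this]; linarith
  · intro h
    rw [h]; simp [e1]; norm_num

end Cfsg.Agent.Cert.Ico
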