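import Cfsg.Agent.Cert.Ico1

/-! Reflections of the icosian Leech lattice. -/

set_option autoImplicit false

namespace Cfsg.Agent.Cert.Ico

open Quaternion Cfsg.Spor

theorem left_add {q x y : ℍ[ℝ]} (hx : x ∈ leftIdeal q) (hy : y ∈ leftIdeal q) : x + y ∈ leftIdeal q := by
  obtain ⟨a, ha, rfl⟩ := hx
  obtain ⟨b, hb, rfl⟩ := hy
  exact ⟨a + b, icosians.add_mem ha hb, (add_mul _ _ _).symm⟩

theorem left_mul {q x a : ℍ[ℝ]} (ha : a ∈ icosians) (hx : x ∈ leftIdeal q) : a * x ∈ leftIdeal q := by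
  obtain ⟨b, hb, rfl⟩ := hx
  exact ⟨a * b, icosians.mul_mem ha hb, (mul_assoc _ _ _).symm⟩

theorem left_neg {q x : ℍ[ℝ]} (hx : x ∈ leftIdeal q) : -x ∈ leftIdeal q := by
  simpa using left_mul (icosians.neg_mem icosians.one_mem) hx

theorem L_add {x y : Fin 3 → ℍ[ℝ]} (hx : x ∈ icoLeech) (hy : y ∈ icoLeech) : x + y ∈ icoLeech := by
  refine ⟨fun t => icosians.add_mem (hx.1 t) (hy.1 t), ?_, ?_, ?_⟩
  · convert left_add hx.2.1 hy.2.1 using 1; simp only [Pi.add_apply]; abel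
  · convert left_add hx.2.2.1 hy.2.2.1 using 1; simp only [Pi.add_apply]; abel
  · convert left_add hx.2.2.2 hy.2.2.2 using 1; simp only [Pi.add_apply]; abel

theorem L_smul {a : ℍ[ℝ]} {x : Fin 3 → ℍ[ℝ]} (ha : a ∈ icosians) (hx : x ∈ icoLeech) :
    a • x ∈ icoLeech := by
  refine ⟨fun t => icosians.mul_mem ha (hx.1 t), ?_, ?_, ?_⟩
  · convert left_mul ha hx.2.1 using 1; simp only [Pi.smul_apply, smul_eq_mul, mul_sub]
  · convert left_mul ha hx.2.2.1 using 1; simp only [Pi.smul_apply, smul_eq_mul, mul_sub]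
  · convert left_mul ha hx.2.2.2 using 1; simp only [Pi.smul_apply, smul_eq_mul, mul_add]

theorem L_sub {x y : Fin 3 → ℍ[ℝ]} (hx : x ∈ icoLeech) (hy : y ∈ icoLeech) : x - y ∈ icoLeech := by
  have := L_add hx (L_smul (icosians.neg_mem icosians.one_mem) hy)
  rwa [neg_smul, one_smul, ← sub_eq_add_neg] at this

theorem vec0 (v : Tr) : vec v 0 = hv v.1 := rfl
theorem vec1 (v : Tr) : vec v 1 = hv v.2.1 := rfl
theorem vec2 (v : Tr) : vec v 2 = hv v.2.2 := rfl

/-- first basis vector -/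
def b1 : Tr := (q1, q1, ((-1, -2), (1, 0), (1, 0), (1, 0)))
/-- second basis vector -/
def b2 : Tr := (q0, qH, ((-1, -2), (-1, 0), (-1, 0), (-1, 0)))
/-- third basis vector -/
def b3 : Tr := (q0, q0, q2)

theorem two_of_both {z : ℍ[ℝ]} (hz : z ∈ icosians) (h1 : z ∈ leftIdeal icoH) (h2 : z ∈ leftIdeal (star icoH)) :
    ∃ c ∈ icosians, z = c * 2 := by
  obtain ⟨a, ha, ea⟩ := h1
  obtain ⟨b, hb, eb⟩ := h2
  have e1' : z * star icoH = a * 2 := by rw [ea, mul_assoc, h_mul_star]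
  have e2 : z * icoH = b * 2 := by rw [eb, mul_assoc, star_mul_h]
  have hs : icoH + star icoH ∈ icosians := by
    rw [← hv_qHB, ← hv_qH]
    exact icosians.add_mem (isI_sound (by decide)) (isI_sound (by decide))
  have h5 : (icoH + star icoH) * (icoH + star icoH) = 1 + 2 * 2 := by
    rw [← hv_qHB, ← hv_qH, ← hv_qa, ← hv_q2, ← hv_q1, mul_eq_of (p := q2) (q := q2) (w := qk 2 q2) (by decide),
      ← hv_qa]
    exact mul_eq_of (by decide)
  have hc : ∀ x : ℍ[ℝ], 2 * x = x * 2 := fun x => by rw [two_mul, mul_two]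
  refine ⟨(a + b) * (icoH + star icoH) - z * 2, ?_, ?_⟩
  · refine icosians.sub_mem (icosians.mul_mem (icosians.add_mem ha hb) hs) ?_
    rw [mul_two]; exact icosians.add_mem hz hz
  · have e3 : z * (icoH + star icoH) = (a + b) * 2 := by rw [mul_add, e1', e2, add_mul, add_comm]
    have e4 : z * (1 + 2 * 2) = (a + b) * (icoH + star icoH) * 2 := by
      rw [← h5, ← mul_assoc, e3, mul_assoc, hc, mul_assoc]
    rw [sub_mul, ← e4, mul_add, mul_one, mul_assoc, add_sub_cancel_right]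

theorem L_ind (P : (Fin 3 → ℍ[ℝ]) → Prop) (h1 : P (vec b1)) (h2 : P (vec b2)) (h3 : P (vec b3))
    (ha : ∀ x y, P x → P y → P (x + y)) (hs : ∀ a ∈ icosians, ∀ x, P x → P (a • x))
    {v : Fin 3 → ℍ[ℝ]} (hv' : v ∈ icoLeech) : P v := by
  have m1 : vec b1 ∈ icoLeech := inL_iff.mp (by decide)
  have m2 : vec b2 ∈ icoLeech := inL_iff.mp (by decide)
  have hw := L_sub hv' (L_smul (hv'.1 0) m1)
  set w := v - v 0 • vec b1 with hw'
  have w0 : w 0 = 0 := by simp [hw', vec0, b1, hv_q1]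
  obtain ⟨a, ha', ea⟩ : w 1 ∈ leftIdeal icoH := by
    have := left_neg hw.2.1
    rwa [w0, zero_sub, neg_neg] at this
  have hu := L_sub hw (L_smul ha' m2)
  set u := w - a • vec b2 with hu'
  have u0 : u 0 = 0 := by simp [hu', w0, vec0, b2, hv_q0]
  have u1 : u 1 = 0 := by simp [hu', ea, vec1, b2, hv_qH]
  obtain ⟨c, hc, ec⟩ := two_of_both (hu.1 2) (by
    have := left_neg hu.2.2.1
    rwa [u1, zero_sub, neg_neg] at this) (by
    have := hu.2.2.2
    rwa [u0, u1, zero_add, zero_add] at this)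
  have e : u = c • vec b3 := by
    funext t
    fin_cases t
    · simp [u0, vec0, b3, hv_q0]
    · simp [u1, vec1, b3, hv_q0]
    · simp [ec, vec2, b3, hv_q2]
  have e2 : v = v 0 • vec b1 + a • vec b2 + c • vec b3 := by
    rw [← e, hu', hw']; abel
  rw [e2]
  exact ha _ _ (ha _ _ (hs _ (hv'.1 0) _ h1) (hs _ ha' _ h2)) (hs _ hc _ h3)

theorem qip_add_left (x y r : Fin 3 → ℍ[ℝ]) : qip (x + y) r = qip x r + qip y r := by
  simp only [qip, Pi.add_apply, add_mul, Finset.sum_add_distrib]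

theorem qip_add_right (x r s : Fin 3 → ℍ[ℝ]) : qip x (r + s) = qip x r + qip x s := by
  simp only [qip, Pi.add_apply, star_add, mul_add, Finset.sum_add_distrib]

theorem qip_smul_left (a : ℍ[ℝ]) (x r : Fin 3 → ℍ[ℝ]) : qip (a • x) r = a * qip x r := by
  simp only [qip, Pi.smul_apply, smul_eq_mul, Finset.mul_sum, mul_assoc]

theorem qip_smul_right (a : ℍ[ℝ]) (x r : Fin 3 → ℍ[ℝ]) : qip x (a • r) = qip x r * star a := by
  simp only [qip, Pi.smul_apply, smul_eq_mul, Finset.sum_mul, star_mul, mul_assoc]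

theorem qip_sub_left (x y r : Fin 3 → ℍ[ℝ]) : qip (x - y) r = qip x r - qip y r := by
  simp only [qip, Pi.sub_apply, sub_mul, Finset.sum_sub_distrib]

theorem qip_sub_right (x r s : Fin 3 → ℍ[ℝ]) : qip x (r - s) = qip x r - qip x s := by
  simp only [qip, Pi.sub_apply, star_sub, mul_sub, Finset.sum_sub_distrib]

theorem star_qip (x r : Fin 3 → ℍ[ℝ]) : star (qip x r) = qip r x := by
  simp only [qip, star_sum, star_mul, star_star]

theorem qip_even {x r : Fin 3 → ℍ[ℝ]} (hx : x ∈ icoLeech) (hr : r ∈ icoLeech) :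
    ∃ a ∈ icosians, qip x r = 2 * a := by
  have hc : ∀ x y : ℍ[ℝ], x * (2 * y) = 2 * (x * y) := fun x y => by simp only [two_mul, mul_add]
  have base : ∀ v w : Tr, d4 (ip v w) = true → ∃ a ∈ icosians, qip (vec v) (vec w) = 2 * a :=
    fun v w h => by rw [qip_vec]; exact d4_iff.mp h
  have step : ∀ v : Tr, d4 (ip v b1) = true → d4 (ip v b2) = true → d4 (ip v b3) = true →
      ∃ a ∈ icosians, qip (vec v) r = 2 * a := by
    intro v h1 h2 h3
    refine L_ind (fun r => ∃ a ∈ icosians, qip (vec v) r = 2 * a) (base _ _ h1) (base _ _ h2)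
      (base _ _ h3) ?_ ?_ hr
    · rintro x y ⟨a, ha, ea⟩ ⟨b, hb, eb⟩
      exact ⟨a + b, icosians.add_mem ha hb, by rw [qip_add_right, ea, eb, mul_add]⟩
    · rintro c hc' x ⟨a, ha, ea⟩
      exact ⟨a * star c, icosians.mul_mem ha (star_mem hc'), by rw [qip_smul_right, ea, mul_assoc]⟩
  refine L_ind (fun x => ∃ a ∈ icosians, qip x r = 2 * a) (step _ (by decide) (by decide) (by decide))
    (step _ (by decide) (by decide) (by decide)) (step _ (by decide) (by decide) (by decide)) ?_ ?_ hx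
  · rintro x y ⟨a, ha, ea⟩ ⟨b, hb, eb⟩
    exact ⟨a + b, icosians.add_mem ha hb, by rw [qip_add_left, ea, eb, mul_add]⟩
  · rintro c hc' x ⟨a, ha, ea⟩
    exact ⟨c * a, icosians.mul_mem hc' ha, by rw [qip_smul_left, ea, hc]⟩

theorem qrefl_eq (r x : Fin 3 → ℍ[ℝ]) : qrefl r x = x - ((1 / 2 : ℝ) • qip x r) • r := rfl

theorem qrefl_mem {x r : Fin 3 → ℍ[ℝ]} (hx : x ∈ icoLeech) (hr : r ∈ icoLeech) : qrefl r x ∈ icoLeech := by
  obtain ⟨a, ha, e⟩ := qip_even hx hr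
  have : (1 / 2 : ℝ) • qip x r = a := by
    rw [e, two_mul, ← two_smul ℝ, smul_smul]; simp
  rw [qrefl_eq, this]
  exact L_sub hx (L_smul ha hr)

theorem mul_four (a : ℍ[ℝ]) : a * 4 = (4 : ℝ) • a := by
  have h4 : (4 : ℍ[ℝ]) = ((4 : ℝ) : ℍ[ℝ]) := by norm_cast
  rw [h4, mul_coe_eq_smul]

theorem qip_qrefl {r : Fin 3 → ℍ[ℝ]} (hr : qip r r = 4) (x y : Fin 3 → ℍ[ℝ]) :
    qip (qrefl r x) (qrefl r y) = qip x y := by
  have h1 : qip (qrefl r x) r = -qip x r := by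
    simp only [qrefl_eq, qip_sub_left, qip_smul_left, hr, mul_four, smul_smul]
    module
  rw [qrefl_eq r y, qip_sub_right, qip_smul_right, h1, qrefl_eq, qip_sub_left, qip_smul_left,
    Quaternion.star_smul, star_qip, smul_mul_assoc, mul_smul_comm, neg_mul]
  module

theorem qrefl_qrefl {r : Fin 3 → ℍ[ℝ]} (hr : qip r r = 4) (x : Fin 3 → ℍ[ℝ]) :
    qrefl r (qrefl r x) = x := by
  have : qip (qrefl r x) r = -qip x r := by
    simp only [qrefl_eq, qip_sub_left, qip_smul_left, hr, mul_four, smul_smul]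
    module
  rw [qrefl_eq r (qrefl r x), this, qrefl_eq, smul_neg, neg_smul]
  abel

theorem qrefl_sub_smul (a x y : Fin 3 → ℍ[ℝ]) (c : ℍ[ℝ]) :
    qrefl a (x - c • y) = qrefl a x - c • qrefl a y := by
  simp only [qrefl_eq, qip_sub_left, qip_smul_left, smul_sub, sub_smul, smul_smul, mul_smul_comm]
  abel

theorem qrefl_conj {a : Fin 3 → ℍ[ℝ]} (ha : qip a a = 4) (r x : Fin 3 → ℍ[ℝ]) :
    qrefl a (qrefl r (qrefl a x)) = qrefl (qrefl a r) x := by
  rw [qrefl_eq r, qrefl_sub_smul, qrefl_qrefl ha, qrefl_eq (qrefl a r), ← qip_qrefl ha x (qrefl a r),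
    qrefl_qrefl ha]

theorem qrefl_unit {u : ℍ[ℝ]} (hu : star u * u = 1) (r x : Fin 3 → ℍ[ℝ]) :
    qrefl (u • r) x = qrefl r x := by
  rw [qrefl_eq, qrefl_eq, qip_smul_right, smul_smul, smul_mul_assoc, mul_assoc, hu, mul_one]

/-- minimal vectors -/
def Good (r : Fin 3 → ℍ[ℝ]) : Prop := r ∈ icoLeech ∧ qip r r = 4

open Classical in
/-- the reflection as a permutation -/
noncomputable def rho (r : Fin 3 → ℍ[ℝ]) : Equiv.Perm icoLeech :=
  if h : Good r then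
    Function.Involutive.toPerm (fun x => ⟨qrefl r x, qrefl_mem x.2 h.1⟩)
      (fun x => Subtype.ext (qrefl_qrefl h.2 x))
  else 1

theorem rho_apply {r : Fin 3 → ℍ[ℝ]} (h : Good r) (x : icoLeech) : (rho r x : Fin 3 → ℍ[ℝ]) = qrefl r x := by
  rw [rho, dif_pos h]; rfl

theorem rho_refl {r : Fin 3 → ℍ[ℝ]} (h : Good r) : IsIcoReflection (rho r) :=
  ⟨⟨r, h.1⟩, h.2, rho_apply h⟩

theorem rho_sq {r : Fin 3 → ℍ[ℝ]} (h : Good r) : rho r * rho r = 1 := by
  ext1 x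
  apply Subtype.ext
  rw [Equiv.Perm.mul_apply, rho_apply h, rho_apply h, qrefl_qrefl h.2]; rfl

theorem rho_conj {a r s : Fin 3 → ℍ[ℝ]} {u : ℍ[ℝ]} (ha : Good a) (hr : Good r) (hs : Good s)
    (hu : star u * u = 1) (e : qrefl a r = u • s) : rho a * rho r * (rho a)⁻¹ = rho s := by
  rw [inv_eq_of_mul_eq_one_right (rho_sq ha)]
  ext1 x
  apply Subtype.ext
  rw [Equiv.Perm.mul_apply, Equiv.Perm.mul_apply, rho_apply ha, rho_apply hr, rho_apply ha, rho_apply hs,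
    qrefl_conj ha.2, e, qrefl_unit hu]

theorem eq_rho {f : Equiv.Perm icoLeech} (hf : IsIcoReflection f) {s : (Fin 3 → ℍ[ℝ]) → Prop}
    (hs : ∀ r, Good r → ∃ (u : ℍ[ℝ]) (w : Fin 3 → ℍ[ℝ]), star u * u = 1 ∧ Good w ∧ s w ∧ r = u • w) : ∃ w, s w ∧ f = rho w := by
  obtain ⟨r, hr, e⟩ := hf
  obtain ⟨u, w, hu, hw, hsw, e2⟩ := hs r ⟨r.2, hr⟩
  refine ⟨w, hsw, ?_⟩
  ext1 x
  apply Subtype.ext
  rw [e, rho_apply hw, e2, qrefl_unit hu]

/-- componentwise maps -/
def tmap (f : Qt → Qt) (v : Tr) : Tr := (f v.1, f v.2.1, f v.2.2)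

/-- eight times the reflected vector -/
def rf (a v : Tr) : Tr :=
  (qs (qk 8 v.1) (qm (ip v a) a.1), qs (qk 8 v.2.1) (qm (ip v a) a.2.1), qs (qk 8 v.2.2) (qm (ip v a) a.2.2))

theorem qrefl_vec (a v : Tr) : qrefl (vec a) (vec v) = (1 / 8 : ℝ) • vec (rf a v) := by
  have key : ∀ p q : Qt, hv p - ((1 / 2 : ℝ) • (1 / 2 : ℝ) • hv (ip v a)) * hv q =
      (1 / 8 : ℝ) • hv (qs (qk 8 p) (qm (ip v a) q)) := by
    intro p q
    rw [hv_qs, hv_qk, smul_mul_assoc, smul_mul_assoc, hv_mul]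
    push_cast
    module
  funext t
  fin_cases t <;> simp only [qrefl, qip_vec] <;> exact key _ _

theorem smul_vec (u : Qt) (v : Tr) : hv u • vec v = (1 / 2 : ℝ) • vec (tmap (qm u) v) := by
  funext t
  fin_cases t <;> exact hv_mul _ _

theorem vec_qk (k : ℤ) (v : Tr) : vec (tmap (qk k) v) = (k : ℝ) • vec v := by
  funext t
  fin_cases t <;> exact hv_qk _ _

theorem unit_of {u : Qt} (h : nrm u = (4, 0)) : star (hv u) * hv u = 1 := by
  rw [star_mul_hv, h]; simp [e1]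

theorem refl_of {a v w : Tr} {u : Qt} (h : rf a v = tmap (qk 4) (tmap (qm u) w)) :
    qrefl (vec a) (vec v) = hv u • vec w := by
  rw [qrefl_vec, smul_vec, h, vec_qk, smul_smul]; norm_num

end Cfsg.Agent.Cert.Ico
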