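import Cfsg.Agent.Cert.IcoData
import Cfsg.Agent.Cert.Ico2
import Cfsg.Agent.Cert.G2Chk1

/-! Kernel checks for the 315 reflections. -/

set_option autoImplicit false

namespace Cfsg.Agent.Cert.Ico

/-- a coordinate -/
def gz (T i : ℕ) : ℤ := Int.subNatNat (lk T 4 16 i) 4
/-- a quaternion -/
def gq (T : ℕ) : Qt := ((gz T 0, gz T 1), (gz T 2, gz T 3), (gz T 4, gz T 5), (gz T 6, gz T 7))
/-- a triple -/
def gt3 (T : ℕ) : Tr := (gq (lk T 32 4294967296 0), gq (lk T 32 4294967296 1), gq (lk T 32 4294967296 2))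
/-- code of the vector number `i` -/
def rc (i : ℕ) : ℕ := lk tR 96 79228162514264337593543950336 i
/-- the vector number `i` -/
def Rv (i : ℕ) : Tr := gt3 (rc i)
/-- units -/
def Uv (k i : ℕ) : Qt := gq (lk tU 32 4294967296 (Nat.add (Nat.mul 512 k) i))
/-- index of the letters -/
def gi (k : ℕ) : ℕ := lk 0x00620135004c000a0000 16 65536 k
/-- words leading to the first letter -/
def ow (i : ℕ) : ℕ := lk tO 32 4294967296 i

/-- code of a coordinate pair -/
def ez (a : Zt) : ℕ := (a.1 + 4).toNat + 16 * (a.2 + 4).toNat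
/-- code of a quaternion -/
def eq4 (c : Qt) : ℕ := ez c.1 + 256 * (ez c.2.1 + 256 * (ez c.2.2.1 + 256 * ez c.2.2.2))
/-- code of a triple -/
def et (v : Tr) : ℕ := eq4 v.1 + 4294967296 * (eq4 v.2.1 + 4294967296 * eq4 v.2.2)
/-- search -/
noncomputable def idx (c : ℕ) : ℕ :=
  Nat.rec (motive := fun _ => ℕ) 315 (fun i acc => cond (Nat.beq (rc i) c) i acc) 315
/-- the triple is listed -/
noncomputable def fnd (v : Tr) : Bool := Nat.blt (idx (et v)) 315 && Rv (idx (et v)) == v

theorem fnd_spec {v : Tr} (h : fnd v = true) : ∃ i < 315, Rv i = v := by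
  rw [fnd, Bool.and_eq_true, beq_iff_eq] at h
  exact ⟨_, Nat.blt_eq.mp h.1, h.2⟩

/-- all integer vectors of length `k` with sum of squares `s ≤ 8` -/
noncomputable def allE (k : ℕ) : ℕ → (List ℤ → Bool) → Bool :=
  Nat.rec (motive := fun _ => ℕ → (List ℤ → Bool) → Bool) (fun s f => cond (Nat.beq s 0) (f []) true)
    (fun _ ih s f => ih s (fun l => f (0 :: l)) &&
      ((cond (Nat.blt s 1) true (ih (Nat.sub s 1) (fun l => f (1 :: l)) &&
        ih (Nat.sub s 1) (fun l => f (-1 :: l)))) &&
      (cond (Nat.blt s 4) true (ih (Nat.sub s 4) (fun l => f (2 :: l)) &&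
        ih (Nat.sub s 4) (fun l => f (-2 :: l)))))) k

theorem allE_spec : ∀ (l : List ℤ) (s : ℕ) (f : List ℤ → Bool), s ≤ 8 → allE l.length s f = true →
    (l.map fun a => a * a).sum = s → f l = true := by
  intro l
  induction l with
  | nil =>
    intro s f _ h e
    obtain rfl : s = 0 := by simpa using e.symm
    exact h
  | cons a l ih =>
    intro s f hs h e
    have h' : (allE l.length s (fun l => f (0 :: l)) &&
      ((cond (Nat.blt s 1) true (allE l.length (s - 1) (fun l => f (1 :: l)) &&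
        allE l.length (s - 1) (fun l => f (-1 :: l)))) &&
      (cond (Nat.blt s 4) true (allE l.length (s - 4) (fun l => f (2 :: l)) &&
        allE l.length (s - 4) (fun l => f (-2 :: l)))))) = true := h
    rw [List.map_cons, List.sum_cons] at e
    have hn : 0 ≤ (l.map fun a => a * a).sum :=
      List.sum_nonneg fun x hx => by
        obtain ⟨y, -, rfl⟩ := List.mem_map.mp hx
        exact mul_self_nonneg y
    simp only [Bool.and_eq_true] at h'
    obtain ⟨h0, h1, h2⟩ := h'
    have hb : ∀ n, ¬ s < n → Nat.blt s n = false := fun n hn => by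
      cases h : Nat.blt s n
      · rfl
      · exact absurd (Nat.blt_eq.mp h) hn
    have ha1 : -2 ≤ a := by nlinarith
    have ha2 : a ≤ 2 := by nlinarith
    interval_cases a
    · rw [hb 4 (by omega), cond_false, Bool.and_eq_true] at h2
      exact ih _ _ (by omega) h2.2 (by omega)
    · rw [hb 1 (by omega), cond_false, Bool.and_eq_true] at h1
      exact ih _ _ (by omega) h1.2 (by omega)
    · exact ih _ _ hs h0 (by omega)
    · rw [hb 1 (by omega), cond_false, Bool.and_eq_true] at h1
      exact ih _ _ (by omega) h1.1 (by omega)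
    · rw [hb 4 (by omega), cond_false, Bool.and_eq_true] at h2
      exact ih _ _ (by omega) h2.1 (by omega)

/-- a list as a quaternion -/
def toQ : List ℤ → Qt
  | [a, b, c, d, e, f, g, h] => ((a, b), (c, d), (e, f), (g, h))
  | _ => q0

theorem allE_Q {s : ℕ} (hs : s ≤ 8) {f : Qt → Bool} (h : allE 8 s (fun l => f (toQ l)) = true) {c : Qt}
    (hc : (nrm c).1 = s) : f c = true := by
  obtain ⟨⟨a, b⟩, ⟨c, d⟩, ⟨e, f'⟩, ⟨g, h'⟩⟩ := c
  refine allE_spec [a, b, c, d, e, f', g, h'] s (fun l => f (toQ l)) hs h ?_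
  rw [← hc]
  simp only [nrm, za, zm, List.map_cons, List.map_nil, List.sum_cons, List.sum_nil]
  ring

/-- short icosians -/
def f4 (c : Qt) : Bool := !isI c || ((nrm c == (4, 0) || nrm c == (4, 4)) && (!d4 (qm c qHB) &&
  (!d4 (qm (qs q1 c) qHB) || L4.elem c)))

/-- a candidate is listed -/
noncomputable def cand (v : Tr) : Bool := !inL v || fnd v

/-- six placements -/
noncomputable def six (c d : Qt) : Bool := !(za (nrm c) (nrm d) == (12, 0)) ||
  (cand (q1, c, d) && (cand (q1, d, c) && (cand (c, q1, d) &&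
    (nrm d == (4, 0) || (cand (d, q1, c) && (cand (c, d, q1) && cand (d, c, q1)))))))

/-- longer icosians -/
noncomputable def f8 (c : Qt) : Bool := !isI c || (!(nrm c == (8, -8)) &&
  ((!(nrm c == (8, 0)) || (cand (qH, c, q0) && (cand (qH, q0, c) && cand (q0, qH, c)))) &&
  (!d4 (qm (qs q1 c) qHB) || L4.all (six c))))

theorem chk_f4 : allE 8 4 (fun l => f4 (toQ l)) = true := by decide +kernel

theorem chk_two : (fnd (q2, q0, q0) && (fnd (q0, q2, q0) && fnd (q0, q0, q2))) = true := by decide +kernel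

theorem chk_good : allR (fun i => inL (Rv i) && tn (Rv i) == (16, 0)) 0 315 9 = true := by decide +kernel

theorem chk_ow : allR (fun i => Nat.beq (evW G2.pp 5 32 (ow i) i) 10 &&
    (Nat.beq i 10 || !(rf (Rv i) (Rv 10) == rf (Rv 10) (Rv 10)))) 0 315 9 = true := by
  decide +kernel

theorem chk_gi : allR (fun k => Nat.blt (gi k) 315) 0 5 3 = true := by decide +kernel

theorem chk_id : allR (fun i => Nat.beq (G2.pp 0 i) i) 0 315 9 = true := by decide +kernel

theorem gi_one : gi 1 = 10 := by decide +kernel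

end Cfsg.Agent.Cert.Ico
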