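import Cfsg.Agent.Cert.Ico3

/-! Enumeration of the longer icosians. -/

set_option autoImplicit false

namespace Cfsg.Agent.Cert.Ico

theorem chk_f8 : allE 8 8 (fun l => f8 (toQ l)) = true := by decide +kernel

end Cfsg.Agent.Cert.Ico
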