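import Cfsg.Agent.Cert.Ico3

/-! The conjugation table, second half. -/

set_option autoImplicit false

namespace Cfsg.Agent.Cert.Ico

theorem chk_refl2 : allR (fun k => allR (fun i => nrm (Uv k i) == (4, 0) &&
    rf (Rv (gi k)) (Rv i) == tmap (qk 4) (tmap (qm (Uv k i)) (Rv (G2.pp k i)))) 0 315 9) 3 5 1 = true := by
  decide +kernel

end Cfsg.Agent.Cert.Ico
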