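import Cfsg.Agent.Cert.Ico4

/-! Every minimal vector is a unit multiple of a listed one. -/

set_option autoImplicit false

namespace Cfsg.Agent.Cert.Ico

open Quaternion Cfsg.Spor

theorem nrm_dvd {c : Qt} (h : isI c = true) : (nrm c).1 % 4 = 0 := by
  rw [isI, beq_iff_eq] at h
  rw [← h]
  generalize back c = x
  obtain ⟨⟨a, b⟩, ⟨c, d⟩, ⟨e, f⟩, ⟨g, h⟩⟩ := x
  have : (nrm (D ((a, b), (c, d), (e, f), (g, h)))).1 = 4 * (a * a + b * b + c * c + d * d + e * e + f * f +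
      g * g + h * h + a * e - a * g + a * h + b * f + b * g + c * e - c * f + c * g - d * e + d * h) := by
    simp only [nrm, D, za, zs, zm, zn, zk]; ring
  rw [this]; omega

theorem nrm_nonneg (c : Qt) : 0 ≤ (nrm c).1 := by
  obtain ⟨⟨a, b⟩, ⟨c, d⟩, ⟨e, f⟩, ⟨g, h'⟩⟩ := c
  simp only [nrm, za, zm]
  have := mul_self_nonneg a; have := mul_self_nonneg b; have := mul_self_nonneg c
  have := mul_self_nonneg d; have := mul_self_nonneg e; have := mul_self_nonneg f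
  have := mul_self_nonneg g; have := mul_self_nonneg h'
  omega

theorem nrm_zero {c : Qt} (h : (nrm c).1 = 0) : c = q0 := by
  obtain ⟨⟨a, b⟩, ⟨c, d⟩, ⟨e, f⟩, ⟨g, h'⟩⟩ := c
  simp only [nrm, za, zm] at h
  have := mul_self_nonneg a; have := mul_self_nonneg b; have := mul_self_nonneg c
  have := mul_self_nonneg d; have := mul_self_nonneg e; have := mul_self_nonneg f
  have := mul_self_nonneg g; have := mul_self_nonneg h'
  simp only [q0, Prod.mk.injEq]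
  refine ⟨⟨?_, ?_⟩, ⟨?_, ?_⟩, ⟨?_, ?_⟩, ?_, ?_⟩ <;> exact mul_self_eq_zero.mp (by omega)

theorem f4_spec {c : Qt} (h : isI c = true) (hs : (nrm c).1 = 4) :
    (nrm c = (4, 0) ∨ nrm c = (4, 4)) ∧ hv c ∉ leftIdeal icoH ∧ (1 - hv c ∈ leftIdeal icoH → c ∈ L4) := by
  have := allE_Q (s := 4) (by norm_num) chk_f4 hs
  rw [← hv_q1, ← hv_qs, ← leftH_iff, ← leftH_iff]
  simp only [f4, h, Bool.not_true, Bool.false_or, Bool.and_eq_true, Bool.or_eq_true, beq_iff_eq,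
    Bool.not_eq_true', List.elem_eq_mem, decide_eq_true_eq] at this
  refine ⟨this.1, by simp [this.2.1], fun h2 => ?_⟩
  rcases this.2.2 with h3 | h3
  · rw [h2] at h3; exact absurd h3 (by decide)
  · exact h3

/-- listed -/
def Li (v : Tr) : Prop := vec v ∈ icoLeech → ∃ i < 315, Rv i = v

theorem cand_spec {v : Tr} (h : cand v = true) : Li v := by
  intro hv'
  rw [cand, inL_iff.mpr hv'] at h
  exact fnd_spec (by simpa using h)

theorem f8_spec {c : Qt} (h : isI c = true) (hs : (nrm c).1 = 8) :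
    nrm c ≠ (8, -8) ∧ (nrm c = (8, 0) → Li (qH, c, q0) ∧ Li (qH, q0, c) ∧ Li (q0, qH, c)) ∧
    (1 - hv c ∈ leftIdeal icoH → ∀ d ∈ L4, za (nrm c) (nrm d) = (12, 0) →
      Li (q1, c, d) ∧ Li (q1, d, c) ∧ Li (c, q1, d) ∧
        (nrm d ≠ (4, 0) → Li (d, q1, c) ∧ Li (c, d, q1) ∧ Li (d, c, q1))) := by
  have := allE_Q (s := 8) (by norm_num) chk_f8 hs
  rw [← hv_q1, ← hv_qs, ← leftH_iff]
  simp only [f8, h, Bool.not_true, Bool.false_or, Bool.and_eq_true, Bool.or_eq_true,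
    Bool.not_eq_true', List.all_eq_true, beq_eq_false_iff_ne] at this
  obtain ⟨h1, h2, h3⟩ := this
  refine ⟨h1, fun h4 => ?_, fun h4 d hd h5 => ?_⟩
  · rcases h2 with h2 | h2
    · exact absurd h4 h2
    · exact ⟨cand_spec h2.1, cand_spec h2.2.1, cand_spec h2.2.2⟩
  · rcases h3 with h3 | h3
    · rw [h4] at h3; exact absurd h3 (by decide)
    · have h6 := h3 d hd
      simp only [six, h5, beq_self_eq_true, Bool.not_true, Bool.false_or, Bool.and_eq_true,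
        Bool.or_eq_true, beq_iff_eq] at h6
      refine ⟨cand_spec h6.1, cand_spec h6.2.1, cand_spec h6.2.2.1, fun h7 => ?_⟩
      rcases h6.2.2.2 with h8 | h8
      · exact absurd h8 h7
      · exact ⟨cand_spec h8.1, cand_spec h8.2.1, cand_spec h8.2.2⟩

theorem pair {c d : Qt} (hc : isI c = true) (hd : isI d = true) (hs : za (nrm c) (nrm d) = (12, 0))
    (h1 : 1 - hv c ∈ leftIdeal icoH) (h2 : 1 - hv d ∈ leftIdeal icoH) :
    Li (q1, c, d) ∧ (nrm c ≠ (4, 0) → Li (c, q1, d)) ∧ (nrm c ≠ (4, 0) → nrm d ≠ (4, 0) → Li (c, d, q1)) := by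
  have hs1 : (nrm c).1 + (nrm d).1 = 12 := congrArg Prod.fst hs
  have hs2 : (nrm c).2 + (nrm d).2 = 0 := congrArg Prod.snd hs
  have := nrm_dvd hc; have := nrm_dvd hd; have := nrm_nonneg c; have := nrm_nonneg d
  have hz : ∀ c, (nrm c).1 = 0 → 1 - hv c ∉ leftIdeal icoH := by
    intro c h0
    rw [nrm_zero h0, ← hv_q1, ← hv_qs, ← leftH_iff]
    decide
  have h4 : (nrm c).1 = 0 ∨ (nrm d).1 = 0 ∨ ((nrm c).1 = 4 ∧ (nrm d).1 = 8) ∨
    ((nrm c).1 = 8 ∧ (nrm d).1 = 4) := by omega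
  rcases h4 with h4 | h4 | h4 | h4
  · exact absurd h1 (hz _ h4)
  · exact absurd h2 (hz _ h4)
  · have h5 := (f8_spec hd h4.2).2.2 h2 c ((f4_spec hc h4.1).2.2 h1)
      (Prod.ext (by simp only [za]; omega) (by simp only [za]; omega))
    exact ⟨h5.2.1, fun h6 => (h5.2.2.2 h6).1, fun h6 _ => (h5.2.2.2 h6).2.2⟩
  · have h5 := (f8_spec hc h4.1).2.2 h1 d ((f4_spec hd h4.2).2.2 h2) hs
    exact ⟨h5.1, fun _ => h5.2.2.1, fun _ h6 => (h5.2.2.2 h6).2.1⟩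

/-- a unit multiple of a listed vector -/
def Fin' (v : Tr) : Prop := ∃ u : ℍ[ℝ], star u * u = 1 ∧ ∃ i < 315, vec v = u • vec (Rv i)

theorem nrm_eq_of {c c' : Qt} {u : ℍ[ℝ]} (hu : u * star u = 1) (e : hv c' = star u * hv c) :
    nrm c' = nrm c := by
  have h1 := star_mul_hv c'
  rw [e, star_mul, star_star, mul_assoc, ← mul_assoc u, hu, one_mul, star_mul_hv, coe_inj] at h1
  apply e1_inj; linarith

/-- Normalisation by a unit. -/
theorem normalise {v : Tr} (hv' : vec v ∈ icoLeech) {U : Qt} (hU : isI U = true) (hn : nrm U = (4, 0)) :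
    ∃ w : Tr, vec w ∈ icoLeech ∧ hv w.1 = star (hv U) * hv v.1 ∧ hv w.2.1 = star (hv U) * hv v.2.1 ∧
      hv w.2.2 = star (hv U) * hv v.2.2 ∧ nrm w.1 = nrm v.1 ∧ nrm w.2.1 = nrm v.2.1 ∧
      nrm w.2.2 = nrm v.2.2 ∧ (Li w → Fin' v) := by
  have hu : hv U * star (hv U) = 1 := by rw [hv_mul_star, hn]; simp [e1]
  have hm := L_smul (star_mem (isI_sound hU)) hv'
  obtain ⟨x, y, z, e⟩ := exists_vec hm
  have e0 : hv (D x) = star (hv U) * hv v.1 := (congrFun e 0).symm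
  have e1' : hv (D y) = star (hv U) * hv v.2.1 := (congrFun e 1).symm
  have e2 : hv (D z) = star (hv U) * hv v.2.2 := (congrFun e 2).symm
  refine ⟨(D x, D y, D z), e ▸ hm, e0, e1', e2, nrm_eq_of hu e0, nrm_eq_of hu e1', nrm_eq_of hu e2, ?_⟩
  intro hL
  obtain ⟨i, hi, ei⟩ := hL (e ▸ hm)
  exact ⟨hv U, unit_of hn, i, hi, by rw [ei, ← e, smul_smul, hu, one_smul]⟩

theorem half {X : Qt} (h : hv X ∈ leftIdeal icoH) :
    ∃ A, isI A = true ∧ hv X = hv A * icoH ∧ nrm X = zk 2 (nrm A) := by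
  obtain ⟨a, ha, e⟩ := h
  obtain ⟨x, rfl⟩ := mem_ico ha
  refine ⟨D x, isI_D x, e, ?_⟩
  have h1 := hv_mul_star X
  have h2 : (2 : ℍ[ℝ]) = ((2 : ℝ) : ℍ[ℝ]) := by norm_cast
  rw [e, star_mul, mul_assoc, ← mul_assoc icoH, h_mul_star, h2, coe_mul_eq_smul, mul_smul_comm,
    hv_mul_star, ← coe_mul_eq_smul, ← coe_mul, coe_inj] at h1
  apply e1_inj; rw [e1_zk]; push_cast; linarith

theorem two_two {X Y : Qt} (hX : hv X ∈ leftIdeal icoH) (hY : hv Y ∈ leftIdeal icoH)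
    (h1 : (nrm X).1 = 8) (h2 : (nrm Y).1 = 8) (h3 : (nrm X).2 + (nrm Y).2 = 0) :
    ∃ A, isI A = true ∧ nrm A = (4, 0) ∧ star (hv A) * hv X = hv qH ∧ nrm Y = (8, 0) := by
  obtain ⟨A, hA, eA, nA⟩ := half hX
  obtain ⟨B, hB, -, nB⟩ := half hY
  have a1 : (nrm X).1 = 2 * (nrm A).1 := by rw [nA]; rfl
  have a2 : (nrm X).2 = 2 * (nrm A).2 := by rw [nA]; rfl
  have b1 : (nrm Y).1 = 2 * (nrm B).1 := by rw [nB]; rfl
  have b2 : (nrm Y).2 = 2 * (nrm B).2 := by rw [nB]; rfl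
  have hA' := (f4_spec hA (by omega)).1
  have hB' := (f4_spec hB (by omega)).1
  simp only [Prod.ext_iff] at hA' hB'
  have hA2 : nrm A = (4, 0) := Prod.ext (by simp only; omega) (by simp only; omega)
  refine ⟨A, hA, hA2, ?_, Prod.ext h2 (by simp only; omega)⟩
  rw [eA, ← mul_assoc, unit_of hA2, one_mul, hv_qH]

theorem four {X : Qt} (h : nrm X = (16, 0)) :
    ∃ u : ℍ[ℝ], star u * u = 1 ∧ hv X = u * hv q2 := by
  refine ⟨(1 / 2 : ℝ) • hv X, ?_, ?_⟩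
  · rw [Quaternion.star_smul, smul_mul_assoc, mul_smul_comm, star_mul_hv, h, smul_smul, ← coe_mul_eq_smul,
      ← coe_mul, ← coe_one, coe_inj]
    simp [e1]; norm_num
  · rw [hv_q2, mul_two, ← add_smul]; norm_num

theorem arith {x y z x' y' z' : ℤ} (n1 : x + y + z = 16) (n2 : x' + y' + z' = 0) (d1 : x % 4 = 0)
    (d2 : y % 4 = 0) (d3 : z % 4 = 0) (p1 : 0 ≤ x) (p2 : 0 ≤ y) (p3 : 0 ≤ z) (a1 : x = 4 → x' = 4)
    (a2 : y = 4 → y' = 4) (a3 : z = 4 → z' = 4) (b1 : x = 8 → x' ≠ -8) (b2 : y = 8 → y' ≠ -8)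
    (b3 : z = 8 → z' ≠ -8) (c1 : x = 4 → y ≠ 0) (c2 : y = 4 → x ≠ 0) (c3 : y = 4 → z ≠ 0)
    (c4 : z = 4 → y ≠ 0) (c5 : x = 4 → z ≠ 0) (c6 : z = 4 → x ≠ 0) :
    (y = 0 ∧ z = 0) ∨ (x = 0 ∧ z = 0) ∨ (x = 0 ∧ y = 0) ∨ (x = 8 ∧ y = 8 ∧ z = 0) ∨
      (x = 8 ∧ y = 0 ∧ z = 8) ∨ (x = 0 ∧ y = 8 ∧ z = 8) := by
  have hx : x = 0 ∨ x = 4 ∨ x = 8 ∨ x = 12 ∨ x = 16 := by omega
  have hy : y = 0 ∨ y = 4 ∨ y = 8 ∨ y = 12 ∨ y = 16 := by omega
  have hz : z = 16 - x - y := by omega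
  subst hz
  rcases hx with rfl | rfl | rfl | rfl | rfl <;> rcases hy with rfl | rfl | rfl | rfl | rfl <;>
    simp at * <;> omega

theorem complete {v : Tr} (hv' : vec v ∈ icoLeech) (hn : tn v = (16, 0)) : Fin' v := by
  obtain ⟨X, Y, Z⟩ := v
  have cong : ∀ {w : Tr}, vec w ∈ icoLeech → hv w.1 - hv w.2.1 ∈ leftIdeal icoH ∧
      hv w.2.1 - hv w.1 ∈ leftIdeal icoH ∧ hv w.2.1 - hv w.2.2 ∈ leftIdeal icoH ∧
      hv w.2.2 - hv w.2.1 ∈ leftIdeal icoH ∧ hv w.1 - hv w.2.2 ∈ leftIdeal icoH ∧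
      hv w.2.2 - hv w.1 ∈ leftIdeal icoH := by
    intro w hw
    have h1 : hv w.1 - hv w.2.1 ∈ leftIdeal icoH := hw.2.1
    have h2 : hv w.2.1 - hv w.2.2 ∈ leftIdeal icoH := hw.2.2.1
    have h3 : hv w.1 - hv w.2.2 ∈ leftIdeal icoH := by simpa using left_add h1 h2
    exact ⟨h1, by simpa using left_neg h1, h2, by simpa using left_neg h2, h3, by simpa using left_neg h3⟩
  have isi : ∀ {w : Tr}, vec w ∈ icoLeech → isI w.1 = true ∧ isI w.2.1 = true ∧ isI w.2.2 = true :=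
    fun hw => ⟨isI_iff.mpr (hw.1 0), isI_iff.mpr (hw.1 1), isI_iff.mpr (hw.1 2)⟩
  obtain ⟨iX, iY, iZ⟩ := isi hv'
  simp only at iX iY iZ
  have n1 : (nrm X).1 + (nrm Y).1 + (nrm Z).1 = 16 := congrArg Prod.fst hn
  have n2 : (nrm X).2 + (nrm Y).2 + (nrm Z).2 = 0 := congrArg Prod.snd hn
  by_cases uX : nrm X = (4, 0)
  · obtain ⟨⟨X', Y', Z'⟩, hw, e0, -, -, -, m1, m2, hf⟩ := normalise hv' iX uX
    simp only at e0 m1 m2
    obtain rfl : X' = q1 := hv_inj (by rw [e0, unit_of uX, hv_q1])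
    have c := cong hw
    simp only [hv_q1] at c
    rw [Prod.ext_iff] at uX
    exact hf (pair (isi hw).2.1 (isi hw).2.2
      (Prod.ext (by simp only [za, m1, m2]; omega) (by simp only [za, m1, m2]; omega)) c.1 c.2.2.2.2.1).1
  by_cases uY : nrm Y = (4, 0)
  · obtain ⟨⟨X', Y', Z'⟩, hw, -, e0, -, m0, -, m2, hf⟩ := normalise hv' iY uY
    simp only at e0 m0 m2
    obtain rfl : Y' = q1 := hv_inj (by rw [e0, unit_of uY, hv_q1])
    have c := cong hw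
    simp only [hv_q1] at c
    rw [Prod.ext_iff] at uY
    exact hf ((pair (isi hw).1 (isi hw).2.2
      (Prod.ext (by simp only [za, m0, m2]; omega) (by simp only [za, m0, m2]; omega))
      c.2.1 c.2.2.1).2.1 (m0 ▸ uX))
  by_cases uZ : nrm Z = (4, 0)
  · obtain ⟨⟨X', Y', Z'⟩, hw, -, -, e0, m0, m1, -, hf⟩ := normalise hv' iZ uZ
    simp only at e0 m0 m1
    obtain rfl : Z' = q1 := hv_inj (by rw [e0, unit_of uZ, hv_q1])
    have c := cong hw
    simp only [hv_q1] at c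
    rw [Prod.ext_iff] at uZ
    exact hf ((pair (isi hw).1 (isi hw).2.1
      (Prod.ext (by simp only [za, m0, m1]; omega) (by simp only [za, m0, m1]; omega))
      c.2.2.2.2.2 c.2.2.2.1).2.2 (m0 ▸ uX) (m1 ▸ uY))
  have c := cong hv'
  simp only at c
  have h44 : ∀ {c : Qt}, isI c = true → nrm c ≠ (4, 0) → (nrm c).1 = 4 → (nrm c).2 = 4 := by
    intro c h1 h2 h3
    rcases (f4_spec h1 h3).1 with h | h
    · exact absurd h h2
    · rw [h]
  have h8 : ∀ {c : Qt}, isI c = true → (nrm c).1 = 8 → (nrm c).2 ≠ -8 :=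
    fun h1 h2 h3 => (f8_spec h1 h2).1 (Prod.ext h2 h3)
  have h40 : ∀ {c d : Qt}, isI c = true → hv c - hv d ∈ leftIdeal icoH → (nrm c).1 = 4 → (nrm d).1 ≠ 0 := by
    intro c d h1 h2 h3 h4
    rw [nrm_zero h4, hv_q0, sub_zero] at h2
    exact (f4_spec h1 h3).2.1 h2
  have hc := arith n1 n2 (nrm_dvd iX) (nrm_dvd iY) (nrm_dvd iZ) (nrm_nonneg X) (nrm_nonneg Y) (nrm_nonneg Z)
    (h44 iX uX) (h44 iY uY) (h44 iZ uZ) (h8 iX) (h8 iY) (h8 iZ) (h40 iX c.1) (h40 iY c.2.1)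
    (h40 iY c.2.2.1) (h40 iZ c.2.2.2.1) (h40 iX c.2.2.2.2.1) (h40 iZ c.2.2.2.2.2)
  have z2 : (nrm q0).2 = 0 := by decide
  have t := chk_two
  simp only [Bool.and_eq_true] at t
  rcases hc with h | h | h | h | h | h
  · obtain rfl := nrm_zero h.1
    obtain rfl := nrm_zero h.2
    obtain ⟨u, hu, e⟩ := four (X := X) (Prod.ext (by simp only; omega) (by simp only; omega))
    obtain ⟨i, hi, ei⟩ := fnd_spec t.1
    refine ⟨u, hu, i, hi, ?_⟩
    rw [ei]; funext t; fin_cases t <;> simp [vec0, vec1, vec2, e, hv_q0]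
  · obtain rfl := nrm_zero h.1
    obtain rfl := nrm_zero h.2
    obtain ⟨u, hu, e⟩ := four (X := Y) (Prod.ext (by simp only; omega) (by simp only; omega))
    obtain ⟨i, hi, ei⟩ := fnd_spec t.2.1
    refine ⟨u, hu, i, hi, ?_⟩
    rw [ei]; funext t; fin_cases t <;> simp [vec0, vec1, vec2, e, hv_q0]
  · obtain rfl := nrm_zero h.1
    obtain rfl := nrm_zero h.2
    obtain ⟨u, hu, e⟩ := four (X := Z) (Prod.ext (by simp only; omega) (by simp only; omega))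
    obtain ⟨i, hi, ei⟩ := fnd_spec t.2.2
    refine ⟨u, hu, i, hi, ?_⟩
    rw [ei]; funext t; fin_cases t <;> simp [vec0, vec1, vec2, e, hv_q0]
  · obtain rfl := nrm_zero h.2.2
    simp only [hv_q0, sub_zero] at c
    obtain ⟨A, hA, nA, eA, nY⟩ := two_two c.2.2.2.2.1 c.2.2.1 h.1 h.2.1 (by omega)
    obtain ⟨⟨X', Y', Z'⟩, hw, e0, -, -, -, m1, m2, hf⟩ := normalise hv' hA nA
    simp only at e0 m1 m2
    obtain rfl : X' = qH := hv_inj (e0.trans eA)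
    obtain rfl : Z' = q0 := nrm_zero (by rw [m2]; rfl)
    exact hf ((f8_spec (isi hw).2.1 (by simp only [m1]; exact h.2.1)).2.1 (m1.trans nY)).1
  · obtain rfl := nrm_zero h.2.1
    simp only [hv_q0, sub_zero] at c
    obtain ⟨A, hA, nA, eA, nY⟩ := two_two c.1 c.2.2.2.1 h.1 h.2.2 (by omega)
    obtain ⟨⟨X', Y', Z'⟩, hw, e0, -, -, -, m1, m2, hf⟩ := normalise hv' hA nA
    simp only at e0 m1 m2
    obtain rfl : X' = qH := hv_inj (e0.trans eA)
    obtain rfl : Y' = q0 := nrm_zero (by rw [m1]; rfl)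
    exact hf ((f8_spec (isi hw).2.2 (by simp only [m2]; exact h.2.2)).2.1 (m2.trans nY)).2.1
  · obtain rfl := nrm_zero h.1
    simp only [hv_q0, sub_zero] at c
    obtain ⟨A, hA, nA, eA, nY⟩ := two_two c.2.1 c.2.2.2.2.2 h.2.1 h.2.2 (by omega)
    obtain ⟨⟨X', Y', Z'⟩, hw, -, e0, -, m0, -, m2, hf⟩ := normalise hv' hA nA
    simp only at e0 m0 m2
    obtain rfl : Y' = qH := hv_inj (e0.trans eA)
    obtain rfl : X' = q0 := nrm_zero (by rw [m0]; rfl)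
    exact hf ((f8_spec (isi hw).2.2 (by simp only [m2]; exact h.2.2)).2.1 (m2.trans nY)).2.2

theorem good_R {i : ℕ} (hi : i < 315) : Good (vec (Rv i)) := by
  have := allR_lt chk_good i hi
  rw [Bool.and_eq_true, beq_iff_eq] at this
  exact ⟨inL_iff.mp this.1, qip_self_iff.mpr this.2⟩

theorem refl_listed {f : Equiv.Perm icoLeech} (hf : IsIcoReflection f) : ∃ i < 315, f = rho (vec (Rv i)) := by
  obtain ⟨w, ⟨i, hi, rfl⟩, e⟩ := eq_rho hf (s := fun w => ∃ i < 315, w = vec (Rv i)) (by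
    intro r hr
    obtain ⟨x, y, z, rfl⟩ := exists_vec hr.1
    obtain ⟨u, hu, i, hi, e⟩ := complete hr.1 (qip_self_iff.mp hr.2)
    exact ⟨u, _, hu, good_R hi, ⟨i, hi, rfl⟩, e⟩)
  exact ⟨i, hi, e⟩

end Cfsg.Agent.Cert.Ico
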