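import Cfsg.Agent.Cert.Coset

/-! Two groups whose generators induce the same permutations. -/

set_option autoImplicit false

namespace Cfsg.Agent.Cert

theorem range_lift_eq_gen {B : Type*} [Group B] (b : ℕ → B) (m : ℕ) :
    (FreeGroup.lift (fun k : Fin m => b k)).range = gen b m := by
  rw [FreeGroup.range_lift_eq_closure, gen]
  congr 1
  ext x
  constructor
  · rintro ⟨k, rfl⟩; exact ⟨k, k.2, rfl⟩
  · rintro ⟨k, hk, rfl⟩; exact ⟨⟨k, hk⟩, rfl⟩

theorem iso_of_rl {A B XA XB : Type*} [Group A] [Group B] [MulAction A XA] [MulAction B XB]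
    {a : ℕ → A} {b : ℕ → B} {p : ℕ → ℕ → ℕ} {m n : ℕ} {α : ℕ → XA} {β : ℕ → XB}
    (ha : Rl a p m n α) (hb : Rl b p m n β) (ia : ∀ k < m, a k * a k = 1) (ib : ∀ k < m, b k * b k = 1)
    (hα : ∀ i < n, ∀ j < n, α i = α j → i = j) (hβ : ∀ i < n, ∀ j < n, β i = β j → i = j)
    (ga : gen a m = ⊤) (Z : Subgroup A) [Z.Normal] (hZ : ∀ x, x ∈ Z ↔ ∀ i < n, x • α i = α i)
    (hB : ∀ y : B, (∀ i < n, y • β i = β i) → y = 1) : Nonempty (gen b m ≃* A ⧸ Z) := by
  let φ : FreeGroup (Fin m) →* A := FreeGroup.lift fun k => a k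
  let ψ : FreeGroup (Fin m) →* B := FreeGroup.lift fun k => b k
  have key : ∀ w, ∀ i < n, ∃ j < n, φ w • α i = α j ∧ ψ w • β i = β j := by
    intro w
    induction w using FreeGroup.induction_on with
    | C1 => intro i hi; exact ⟨i, hi, by simp, by simp⟩
    | of k =>
      intro i hi
      exact ⟨p k i, (ha k k.2 i hi).1, by simpa [φ] using (ha k k.2 i hi).2,
        by simpa [ψ] using (hb k k.2 i hi).2⟩
    | inv_of k ih =>
      intro i hi
      have e1 : (a k)⁻¹ = a k := inv_eq_of_mul_eq_one_right (ia k k.2)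
      have e2 : (b k)⁻¹ = b k := inv_eq_of_mul_eq_one_right (ib k k.2)
      exact ⟨p k i, (ha k k.2 i hi).1, by simpa [φ, e1] using (ha k k.2 i hi).2,
        by simpa [ψ, e2] using (hb k k.2 i hi).2⟩
    | mul x y ihx ihy =>
      intro i hi
      obtain ⟨j, hj, e1, e2⟩ := ihy i hi
      obtain ⟨l, hl, e3, e4⟩ := ihx j hj
      exact ⟨l, hl, by rw [map_mul, mul_smul, e1, e3], by rw [map_mul, mul_smul, e2, e4]⟩
  have hker : ψ.ker = ((QuotientGroup.mk' Z).comp φ).ker := by
    ext w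
    simp only [MonoidHom.mem_ker, MonoidHom.comp_apply, QuotientGroup.mk'_apply, QuotientGroup.eq_one_iff,
      hZ]
    constructor
    · intro h i hi
      obtain ⟨j, hj, e1, e2⟩ := key w i hi
      rw [h, one_smul] at e2
      rw [e1, hβ i hi j hj e2]
    · intro h
      apply hB
      intro i hi
      obtain ⟨j, hj, e1, e2⟩ := key w i hi
      rw [h i hi] at e1
      rw [e2, hα i hi j hj e1]
  have hsurj : Function.Surjective ((QuotientGroup.mk' Z).comp φ) := by
    apply (QuotientGroup.mk'_surjective Z).comp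
    rw [← MonoidHom.range_eq_top, range_lift_eq_gen, ga]
  exact ⟨(MulEquiv.subgroupCongr (range_lift_eq_gen b m).symm).trans
    ((QuotientGroup.quotientKerEquivRange ψ).symm.trans
      ((QuotientGroup.quotientMulEquivOfEq hker).trans
        (QuotientGroup.quotientKerEquivOfSurjective _ hsurj)))⟩

end Cfsg.Agent.Cert
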