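import Cfsg.Agent.Cert.Ico5
import Cfsg.Agent.Cert.Ico6
import Cfsg.Agent.Cert.Ico7
import Cfsg.Agent.Cert.G2Main
import Cfsg.Agent.Cert.Iso

/-! The subgroup of `G₂(4)` is the Hall-Janko group. -/

set_option autoImplicit false

namespace Cfsg.Agent.Cert.Ico

open Quaternion Cfsg.Spor

/-- permutations, acted on by conjugation -/
def PX : Type := Equiv.Perm icoLeech

/-- conjugation -/
noncomputable def cj (a : twoJ2) (x : Equiv.Perm icoLeech) : Equiv.Perm icoLeech := a.1 * x * a.1⁻¹

theorem cj_one (x : Equiv.Perm icoLeech) : cj 1 x = x := by simp [cj]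

theorem cj_mul (a b : twoJ2) (x : Equiv.Perm icoLeech) : cj (a * b) x = cj a (cj b x) := by
  simp only [cj, Subgroup.coe_mul]; group

noncomputable instance actPX : MulAction twoJ2 PX where
  smul := cj
  one_smul := cj_one
  mul_smul := cj_mul

/-- the reflections -/
noncomputable def al (i : ℕ) : PX := rho (vec (Rv i))

/-- the reflections as group elements -/
noncomputable def alg (i : ℕ) : twoJ2 :=
  if h : i < 315 then ⟨rho (vec (Rv i)), Subgroup.subset_closure (rho_refl (good_R h))⟩ else 1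

theorem alg_val {i : ℕ} (h : i < 315) : (alg i : Equiv.Perm icoLeech) = rho (vec (Rv i)) := by
  rw [alg, dif_pos h]

/-- the letters -/
noncomputable def lt (k : ℕ) : twoJ2 := if k = 0 then 1 else alg (gi k)

theorem gi_lt {k : ℕ} (hk : k < 5) : gi k < 315 := Nat.blt_eq.mp (allR_lt chk_gi k hk)

theorem smul_def (a : twoJ2) (i : ℕ) :
    a • al i = (a.1 * rho (vec (Rv i)) * a.1⁻¹ : Equiv.Perm icoLeech) := rfl

theorem rl_lt : Rl lt G2.pp 5 315 al := by
  intro k hk x hx
  have hp : G2.pp k x < 315 := Nat.blt_eq.mp (allR_lt (allR_lt G2.chk_315 k hk) x hx)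
  refine ⟨hp, ?_⟩
  by_cases h0 : k = 0
  · subst h0
    rw [lt, if_pos rfl, one_smul, Nat.eq_of_beq_eq_true (allR_lt chk_id x hx)]
  · have hc : (nrm (Uv k x) == (4, 0) &&
        rf (Rv (gi k)) (Rv x) == tmap (qk 4) (tmap (qm (Uv k x)) (Rv (G2.pp k x)))) = true := by
      by_cases h3 : k < 3
      · exact allR_lt (allR_spec chk_refl1 k (by omega) h3) x hx
      · exact allR_lt (allR_spec chk_refl2 k (by omega) hk) x hx
    rw [Bool.and_eq_true, beq_iff_eq, beq_iff_eq] at hc
    rw [lt, if_neg h0, smul_def, alg_val (gi_lt hk)]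
    exact rho_conj (good_R (gi_lt hk)) (good_R hx) (good_R hp) (unit_of hc.1) (refl_of hc.2)

theorem lt_sq : ∀ k < 5, lt k * lt k = 1 := by
  intro k hk
  by_cases h0 : k = 0
  · rw [lt, if_pos h0, one_mul]
  · rw [lt, if_neg h0]
    apply Subtype.ext
    rw [Subgroup.coe_mul, alg_val (gi_lt hk)]
    exact rho_sq (good_R (gi_lt hk))

theorem ow_spec {i : ℕ} (hi : i < 315) : evW G2.pp 5 32 (ow i) i = 10 ∧
    (i ≠ 10 → rf (Rv i) (Rv 10) ≠ rf (Rv 10) (Rv 10)) := by
  have := allR_lt chk_ow i hi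
  simp only [Bool.and_eq_true, Bool.or_eq_true, Nat.beq_eq, Bool.not_eq_true', beq_eq_false_iff_ne] at this
  exact ⟨this.1, fun h => this.2.resolve_left h⟩

theorem al_eq_ten {i : ℕ} (hi : i < 315) (e : al i = al 10) : i = 10 := by
  by_contra hne
  apply (ow_spec hi).2 hne
  have g10 := good_R (show 10 < 315 by norm_num)
  have e1 : rho (vec (Rv i)) = rho (vec (Rv 10)) := e
  have e2 := rho_apply (good_R hi) ⟨_, g10.1⟩
  rw [e1, rho_apply g10, qrefl_vec, qrefl_vec] at e2
  exact (vec_inj (smul_right_injective _ (by norm_num) e2)).symm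

theorem closure_ind (K : Subgroup twoJ2) (h : ∀ i < 315, alg i ∈ K) : K = ⊤ := by
  rw [eq_top_iff]
  rintro ⟨a, ha⟩ -
  induction ha using Subgroup.closure_induction with
  | one => exact K.one_mem
  | mul a b ha hb iha ihb => exact K.mul_mem iha ihb
  | inv a ha iha => exact K.inv_mem iha
  | mem a ha =>
    obtain ⟨i, hi, e⟩ := refl_listed ha
    convert h i hi using 1
    apply Subtype.ext
    rw [alg_val hi]; exact e

theorem gen_lt : gen lt 5 = ⊤ := by
  apply closure_ind
  intro i hi
  have e := (rl_lt.word (by norm_num) 32 (ow i) i hi).2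
  rw [(ow_spec hi).1, smul_def] at e
  have hw := gW_mem_gen lt (by norm_num : 0 < 5) 32 (ow i)
  have h1 : lt 1 ∈ gen lt 5 := mem_gen _ (by norm_num)
  rw [lt, if_neg one_ne_zero, gi_one] at h1
  have e2 : alg i = (gW lt 5 32 (ow i))⁻¹ * alg 10 * gW lt 5 32 (ow i) := by
    apply Subtype.ext
    have e3 : rho (vec (Rv 10)) = _ := e.symm
    simp only [Subgroup.coe_mul, Subgroup.coe_inv, alg_val hi, alg_val (show 10 < 315 by norm_num), e3]
    group
  rw [e2]
  exact Subgroup.mul_mem _ (Subgroup.mul_mem _ (Subgroup.inv_mem _ hw) h1) hw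

theorem center_iff (x : twoJ2) : x ∈ Subgroup.center twoJ2 ↔ ∀ i < 315, x • al i = al i := by
  constructor
  · intro h i hi
    have := congrArg Subtype.val (Subgroup.mem_center_iff.mp h (alg i))
    simp only [Subgroup.coe_mul, alg_val hi] at this
    rw [smul_def, ← this, mul_inv_cancel_right]; rfl
  · intro h
    have := closure_ind (Subgroup.centralizer {x}) fun i hi => by
      rw [Subgroup.mem_centralizer_singleton_iff]
      apply Subtype.ext
      have e : (x.1 * rho (vec (Rv i)) * x.1⁻¹ : Equiv.Perm icoLeech) = rho (vec (Rv i)) := h i hi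
      simp only [Subgroup.coe_mul, alg_val hi]
      exact (mul_inv_eq_iff_eq_mul.mp e).symm
    rw [Subgroup.mem_center_iff]
    intro y
    have hy : y ∈ Subgroup.centralizer ({x} : Set twoJ2) := this ▸ Subgroup.mem_top y
    exact Subgroup.mem_centralizer_singleton_iff.mp hy

theorem isoJ2 {F : Type*} [Field F] {ω : F} (h : W4 ω) : IsoJ2 (G2.H h) := by
  refine iso_of_rl rl_lt (G2.rl_h h) lt_sq (fun k hk => G2.invol h k (by omega)) ?_
    (fun i hi j hj => G2.V_inj315 h hi hj) gen_lt _ center_iff ?_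
  · intro i hi j hj e
    have a1 := rl_lt.word (by norm_num) 32 (ow j) i hi
    have a2 := rl_lt.word (by norm_num) 32 (ow j) j hj
    have b1 := (G2.rl_h h).word (by norm_num) 32 (ow j) i hi
    have b2 := (G2.rl_h h).word (by norm_num) 32 (ow j) j hj
    rw [(ow_spec hj).1] at a2 b2
    have e1 := al_eq_ten a1.1 (by rw [← a1.2, ← a2.2, e])
    rw [e1, ← b2.2] at b1
    exact G2.V_inj315 h hi hj (MulAction.injective _ b1.2)
  · intro y hy
    apply G2.base h
    intro x hx
    rw [hy x (by omega), one_smul]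

end Cfsg.Agent.Cert.Ico
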